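import Cfsg.Agent.H151.K547.D3
import Cfsg.Agent.H151.K4.TwF4
import Cfsg.Agent.H807.CubePar
import Cfsg.Agent.H619.Gow.TwD4
import Cfsg.Agent.FixBN.WittNodeB

/-!
# S4547: `D3` for the groups of Lie type of characteristic two and rank at least two (helper151)

* `rk_of_par`, `rk_of_nd`, `rk_of_ext` : the root groups;
* `D3_psl3`, `D3_witt`, `D3_G2`, `D3_tD4`, `D3_tF4`.
-/

set_option autoImplicit false
set_option linter.unusedSectionVars false

open Cfsg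

namespace Cfsg.Agent.H151.K547

open Cfsg.Agent.H821.K547

universe u v

section abs

/-- a group parametrised by a field of characteristic two -/
theorem rk_of_par {F : Type*} [Field F] [CharP F 2] {Y : Type*} [Group Y] [Finite Y] {X : Subgroup Y}
    (φ : F → Y) (hadd : ∀ a b, φ (a + b) = φ a * φ b)
    (hX : ∀ x ∈ X, ∃ a, φ a = x) {m : ℕ} (hm : 2 ^ m ≤ Nat.card X) : Rk m X := by
  have h0 : φ 0 = 1 := by
    have := hadd 0 0
    rw [add_zero] at this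
    exact left_eq_mul.1 this
  refine rk_of_elem ?_ ?_ hm
  · rintro ⟨x, hx⟩ ⟨y, hy⟩
    obtain ⟨a, rfl⟩ := hX x hx
    obtain ⟨b, rfl⟩ := hX y hy
    apply Subtype.ext
    change φ a * φ b = φ b * φ a
    rw [← hadd, ← hadd, add_comm]
  · rintro ⟨x, hx⟩
    obtain ⟨a, rfl⟩ := hX x hx
    apply Subtype.ext
    change φ a * φ a = 1
    rw [← hadd, CharTwo.add_self_eq_zero, h0]

/-- split extensions -/
theorem rk_of_ext {Y : Type*} [Group Y] {U V X : Subgroup Y} (hUN : U ≤ Subgroup.normalizer (V : Set Y))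
    (hVU : V ≤ U) (hXU : X ≤ U) (hsplit : ∀ u ∈ U, ∃ x ∈ X, ∃ v ∈ V, u = x * v) (hinf : ∀ x ∈ X, x ∈ V → x = 1)
    {m : ℕ} (h : Rk m X) : Rk m U := by
  have := hVU
  have hN : (V.subgroupOf U).Normal := by
    constructor
    intro x hx g
    rw [Subgroup.mem_subgroupOf] at hx ⊢
    exact (Subgroup.mem_normalizer_iff.1 (hUN g.2) (x : Y)).1 hx
  let φ : ↥X →* ↥U ⧸ V.subgroupOf U := (QuotientGroup.mk' (V.subgroupOf U)).comp (Subgroup.inclusion hXU)
  have hφ : ∀ x : X, φ x = QuotientGroup.mk ⟨x, hXU x.2⟩ := fun x => rfl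
  have h1 : Function.Injective φ := by
    rw [injective_iff_map_eq_one]
    intro x hx
    rw [hφ, QuotientGroup.eq_one_iff, Subgroup.mem_subgroupOf] at hx
    exact Subtype.ext (hinf x x.2 hx)
  have h2 : Function.Surjective φ := by
    intro y
    obtain ⟨⟨u, hu⟩, rfl⟩ := QuotientGroup.mk_surjective y
    obtain ⟨x, hx, v, hv, rfl⟩ := hsplit u hu
    refine ⟨⟨x, hx⟩, ?_⟩
    rw [hφ]
    refine QuotientGroup.eq.2 ?_
    rw [Subgroup.mem_subgroupOf]
    change x⁻¹ * (x * v) ∈ V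
    rwa [inv_mul_cancel_left]
  exact rk_of_surj (QuotientGroup.mk' (V.subgroupOf U)) (QuotientGroup.mk'_surjective _)
    (rk_congr (MulEquiv.ofBijective φ ⟨h1, h2⟩).symm h)

end abs

section nd

open CoxeterSystem Cfsg.Agent.ChevalleyStructure.CoxeterGeom Cfsg.Agent.Tits.Roots Cfsg.Agent.Tits.Core
  Cfsg.Agent.Nodes.Reps Cfsg.Agent.Nodes.BNOf Cfsg.Agent.Nodes.Bruhat
open Cfsg.Agent.ChevalleyStructure.SL2Hom (up lo)

variable {I W Y : Type*} [Fintype I] [DecidableEq I] [Group W] [Group Y] {M : CoxeterMatrix I}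
  {cs : CoxeterSystem M W} {A : I → I → ℤ} {h : IsCartan M A} {T : Subgroup Y} {n : I → Y}
  {X : (I → ℤ) → Subgroup Y}

theorem rk_of_nd [Finite Y] {i : I} {F : Type*} [Field F] [Finite F] [CharP F 2]
    {φ : Matrix.SpecialLinearGroup (Fin 2) F →* Y} (N : H619.Gow.Nd cs h T n X i φ) {m : ℕ}
    (hm : 2 ^ m ≤ Nat.card F) : Rk m (X (sr i)) := by
  refine rk_of_par (fun a => φ (up a)) (fun a b => ?_) (fun x hx => ?_) (hm.trans ?_)
  · rw [← map_mul]
    congr 1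
    apply Subtype.ext
    change (!![1, a + b; 0, 1] : Matrix (Fin 2) (Fin 2) F) = !![1, a; 0, 1] * !![1, b; 0, 1]
    ext i j
    fin_cases i <;> fin_cases j <;> simp [Matrix.mul_apply, Fin.sum_univ_two, add_comm]
  · obtain ⟨a, ha⟩ := (N.mem_X x).1 hx
    exact ⟨a, ha.symm⟩
  · exact Nat.card_le_card_of_injective (fun a => (⟨φ (up a), (N.mem_X _).2 ⟨a, rfl⟩⟩ : X (sr i)))
      fun a b e => N.inj_up a b (congrArg Subtype.val e)

end nd

section rows

open CoxeterSystem Cfsg.Agent.ChevalleyStructure.CoxeterGeom Cfsg.Agent.Tits.Roots Cfsg.Agent.Tits.Core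
  Cfsg.Agent.Nodes.Reps Cfsg.Agent.Nodes.BNOf Cfsg.Agent.Nodes.Bruhat

/-! ### `G₂(q)` and `³D₄(q)` -/

theorem D3_G2 (F : Type u) [Field F] [Fintype F] [CharP F 2] (hF : 4 ≤ Fintype.card F) :
    D3 ↥(Lie.chevG2.group F) := by
  have : Fact (Nat.Prime 2) := ⟨Nat.prime_two⟩
  have : Finite CoxeterMatrix.G₂.Group := Nodes.RGDChev.finite_W H619.Gow.isTypeG2 CoxeterMatrix.G₂.toCoxeterSystem
  have R := Cfsg.Agent.Nodes.RGDChev.rgd (K := F) H619.Gow.isTypeG2 CoxeterMatrix.G₂.toCoxeterSystem 2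
  have hG : GG CoxeterMatrix.G₂.toCoxeterSystem H619.Gow.isTypeG2.isCartan
      ((Lie.chevG2.diagonalSubgroup F).subgroupOf (Lie.chevG2.group F))
      (fun x => (Nodes.RGDChev.XV Lie.chevG2 2 F x).subgroupOf (Lie.chevG2.group F)) = ⊤ :=
    Cfsg.Agent.KFacts.RgdFilt.GG_eq_top (Cfsg.Agent.Nodes.RGDChev.G1_eq_top H619.Gow.isTypeG2 _)
  have N0 := H619.Gow.nd_chev (K := F) H619.Gow.isTypeG2 CoxeterMatrix.G₂.toCoxeterSystem 0
  have h0 := rk_of_nd N0 (m := 2) (by rwa [Nat.card_eq_fintype_card])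
  exact D3_of_U R hG (rk_two R (i := 0) (j := 1) (by decide) h0 (rk_X R 1))

open Cfsg.Agent.H619.Gow in
open Cfsg.Agent.Nodes.RGDFoldSL (Fx mem_Fx) in
open Cfsg.Agent.ChevalleyStructure in
theorem D3_tD4 (K : Type u) [Field K] [Fintype K] [CharP K 2] (q : ℕ) (hq : IsPrimePow q)
    (hK : Fintype.card K = q ^ 3) : D3 ↥(Lie.twistedD4 K q) := by
  have : Fact (Nat.Prime 2) := ⟨Nat.prime_two⟩
  obtain ⟨φ, hφ⟩ := D4Fixed.exists_frob hq hK
  have hle := D4Fixed.twisted_le_fix hK hφ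
  have h3 := fun t => mem_Fx3 (φ := φ) hK hφ t
  have : Finite CoxeterMatrix.G₂.Group := Nodes.RGDChev.finite_W isTypeG2 CoxeterMatrix.G₂.toCoxeterSystem
  have R := Nodes.RGDTwD4.rgd (K := K) CoxeterMatrix.G₂.toCoxeterSystem hK hφ 2
  have hG : GG CoxeterMatrix.G₂.toCoxeterSystem Nodes.RGDTwD4.isCartan (Nodes.RGDTwD4.T K q)
      (Nodes.RGDTwD4.X φ q) = ⊤ :=
    Cfsg.Agent.KFacts.RgdFilt.GG_eq_top (Nodes.RGDTwD4.G1_eq_top CoxeterMatrix.G₂.toCoxeterSystem hK hφ)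
  have N1 := nd_tw hφ hle CoxeterMatrix.G₂.toCoxeterSystem 1
  have c1 : CharP (Fx φ (ln 1)) 2 := (RingHom.charP_iff _ (Fx φ (ln 1)).subtype.injective 2).2 inferInstance
  have f1 : Finite (Fx φ (ln 1)) := inferInstance
  have hcard : Nat.card (Fx φ (ln 1)) = q ^ 3 := by
    rw [← hK, ← Nat.card_eq_fintype_card]
    exact Nat.card_congr ((Equiv.subtypeUnivEquiv fun x => mem_Fx.2 (h3 x)))
  have h1 := rk_of_nd N1 (m := 3) (by
    rw [hcard]
    exact Nat.pow_le_pow_left hq.two_le 3)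
  exact D3_of_U R hG (rk_node R h1)

/-! ### `PSL₃(q)` -/

open Cfsg.Agent.LieRecognition.BNCox (cA) in
open Cfsg.Agent.TitsThree.KSideA (tv tv_of_ne tv_add tv_zero) in
theorem D3_psl3 {F : Type u} [Field F] [Finite F] [CharP F 2] (hF : 4 ≤ Nat.card F) :
    D3 (Matrix.ProjectiveSpecialLinearGroup (Fin 3) F) := by
  have : Fact (Nat.Prime 2) := ⟨Nat.prime_two⟩
  have hfin : Finite (cA 2).Group := Nodes.RootsA.finite_W (cA 2).toCoxeterSystem (Nodes.RootsA.isCartan 2)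
  have hfin2 : Finite (Matrix.ProjectiveSpecialLinearGroup (Fin 3) F) := Quotient.finite _
  have R := Nodes.RGDTypeA.rgd_psl (n := 2) (F := F) (p := 2) (cA 2).toCoxeterSystem (Nodes.RootsA.isCartan 2)
  have hG := H807.CubePar.GG_eq_top (T := (Nodes.RGDTypeA.T (Fin 3) F).map (Nodes.RGDTypeA.pr 2 F))
    (Nodes.RGDTypeA.G1_psl_eq_top (n := 2) (F := F) (cA 2).toCoxeterSystem (Nodes.RootsA.isCartan 2))
  have hne : (0 : Fin 2).castSucc ≠ (0 : Fin 2).succ := by decide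
  have hmem : ∀ g, g ∈ (Nodes.RGDTypeA.X (n := 2) F (sr 0)).map (Nodes.RGDTypeA.pr 2 F) ↔
      ∃ t, Nodes.RGDTypeA.pr 2 F (tv (0 : Fin 2).castSucc (0 : Fin 2).succ t) = g := by
    intro g
    rw [Nodes.RGDTypeA.X_sr]
    constructor
    · rintro ⟨_, ⟨t, rfl⟩, rfl⟩
      exact ⟨t, rfl⟩
    · rintro ⟨t, rfl⟩
      exact ⟨_, Nodes.RGDTypeA.tv_mem_XX _ _ _, rfl⟩
  have hinj : ∀ t : F, Nodes.RGDTypeA.pr 2 F (tv (0 : Fin 2).castSucc (0 : Fin 2).succ t) = 1 → t = 0 := by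
    intro t h
    have h1 : tv (0 : Fin 2).castSucc (0 : Fin 2).succ t ∈
        Subgroup.center (Matrix.SpecialLinearGroup (Fin (2 + 1)) F) := (QuotientGroup.eq_one_iff _).1 h
    rw [Matrix.SpecialLinearGroup.mem_center_iff] at h1
    obtain ⟨r, -, hr⟩ := h1
    have hr' : Matrix.scalar (Fin (2 + 1)) r = 1 + Matrix.single (0 : Fin 2).castSucc (0 : Fin 2).succ t :=
      hr.trans (Nodes.RGDTypeA.tv_val hne t)
    have h2 := congrArg (fun g : Matrix (Fin (2 + 1)) (Fin (2 + 1)) F => g (0 : Fin 2).castSucc (0 : Fin 2).succ) hr'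
    rw [Matrix.scalar_apply] at h2
    simp only [Matrix.diagonal_apply_ne _ hne, Matrix.add_apply, Matrix.one_apply_ne hne, zero_add,
      Matrix.single_apply_same] at h2
    exact h2.symm
  have h0 : Rk 2 ((Nodes.RGDTypeA.X (n := 2) F (sr 0)).map (Nodes.RGDTypeA.pr 2 F)) := by
    refine rk_of_par (fun t => Nodes.RGDTypeA.pr 2 F (tv (0 : Fin 2).castSucc (0 : Fin 2).succ t))
      (fun a b => by rw [tv_add, map_mul]) (fun x hx => (hmem x).1 hx) (le_trans hF ?_)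
    refine Nat.card_le_card_of_injective (fun t => (⟨_, (hmem _).2 ⟨t, rfl⟩⟩ :
      (Nodes.RGDTypeA.X (n := 2) F (sr 0)).map (Nodes.RGDTypeA.pr 2 F))) fun a b e => ?_
    have e1 := congrArg Subtype.val e
    change Nodes.RGDTypeA.pr 2 F (tv _ _ a) = Nodes.RGDTypeA.pr 2 F (tv _ _ b) at e1
    have e2 := hinj (a - b) (by
      have e3 : tv (0 : Fin 2).castSucc (0 : Fin 2).succ (a - b + b) =
        tv (0 : Fin 2).castSucc (0 : Fin 2).succ (a - b) * tv (0 : Fin 2).castSucc (0 : Fin 2).succ b := tv_add _ _ _ _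
      rw [sub_add_cancel] at e3
      have e4 := congrArg (Nodes.RGDTypeA.pr 2 F) e3
      rw [map_mul, e1] at e4
      exact right_eq_mul.1 e4)
    exact sub_eq_zero.1 e2
  exact D3_of_U R hG (rk_two R (i := 0) (j := 1) (by decide) h0 (rk_X R 1))

end rows

/-! ### `PSp₄(q)`, `PSU₄(q)`, `PSU₅(q)` -/

section witt

open Cfsg.Agent.ChevalleyStructure.CoxeterGeom Cfsg.Agent.Tits.Roots
open Cfsg.Agent.Nodes Cfsg.Agent.Nodes.Comb Cfsg.Agent.Nodes.WittAll Cfsg.Agent.Nodes.WittU Cfsg.Agent.Nodes.WittInst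
  Cfsg.Agent.Nodes.WittRoot Cfsg.Agent.Nodes.TypeC Cfsg.Agent.Nodes.WittRGD
  Cfsg.Agent.TitsThree Cfsg.Agent.TitsThree.Siegel Cfsg.Agent.TitsThree.SiegelGen
  Cfsg.Agent.TitsThree.WittFrame Cfsg.Agent.TitsThree.WBridge Cfsg.Agent.TitsThree.WittWeyl
  Cfsg.Agent.TitsThree.FrameCN Cfsg.Agent.LieClassical.HermBasic Cfsg.Agent.TitsThree.KSideU

theorem D3_witt {F : Type*} [Field F] [Finite F] [CharP F 2] {V : Type*} [AddCommGroup V] [Module F V] [Finite V]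
    {H : HForm F V} {Fr : Frame H (Fin 2)} {K : Type*} [Group K] [Finite K] (M : Model Fr K)
    (hA : AmbT Fr 2 M.I) {p0 : Fr.Adm} (hp0 : p0.c ≠ 0) (h4 : 4 ≤ Nat.card F) : D3 K := by
  have : Fact (Nat.Prime 2) := ⟨Nat.prime_two⟩
  have hfin : Finite (CoxeterMatrix.B 2).Group := finite_W (CoxeterMatrix.B 2).toCoxeterSystem
  have R := rgdC_model M hA hp0 (CoxeterMatrix.B 2).toCoxeterSystem
  have hGG := H807.CubePar.GG_eq_top (T := WittModel.T M)
    (WittModel.G1_eq_top M (by norm_num) (CoxeterMatrix.B 2).toCoxeterSystem)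
  have hi : ((0 : Fin 2) : ℕ) + 1 < 2 := by norm_num
  have hne' : (((0 : Fin 2), true) : Fin 2 × Bool).1 ≠ (nx (0 : Fin 2)).1 := by
    unfold nx; rw [dif_pos hi]; simp
  have h0 : Rk 2 (WittModel.X M (sr 0)) := by
    refine rk_of_par (fun t => M.φ ⟨Fr.X (0, true) (nx 0) t, hA.X_mem _ _ _⟩) (fun a b => ?_) ?_
      (by rw [H807.CubePar.card_short M hA hp0 hi]; exact h4)
    · rw [← map_mul]
      congr 1
      apply Subtype.ext
      change Fr.X (0, true) (nx 0) (a + b) = Fr.X (0, true) (nx 0) a * Fr.X (0, true) (nx 0) b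
      exact Fr.X_add _ _ _ _
    · rintro _ ⟨⟨g, hgI⟩, hg, rfl⟩
      have h1 : g ∈ rg Fr (sr 0) := hg
      rw [rg_sr, PG_ne Fr hne'] at h1
      obtain ⟨a, rfl⟩ := h1
      exact ⟨a, rfl⟩
  exact D3_of_U R hGG (rk_two R (i := 0) (j := 1) (by decide) h0 (rk_X R 1))

theorem D3_psp4 {F : Type*} [Field F] [Finite F] [CharP F 2] (h4 : 4 ≤ Nat.card F) : D3 (PSp 2 F) := by
  have : Fact (Nat.Prime 2) := ⟨Nat.prime_two⟩
  have : Finite (PSp 2 F) := inferInstance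
  exact D3_witt (KInstSp.model 2 F) (AmbT.of_amb amb_Sp 2) (p0 := SpIdent.adm 1) one_ne_zero h4

theorem D3_psu {F : Type*} [Field F] [Fintype F] [CharP F 2] {q N : ℕ} (hF : Fintype.card F = q ^ 2)
    (hN : N = 4 ∨ N = 5) : D3 (PSU N F q) := by
  have : Fact (Nat.Prime 2) := ⟨Nat.prime_two⟩
  have : Finite (PSU N F q) := inferInstance
  have h4 : 4 ≤ Nat.card F := by
    rw [Nat.card_eq_fintype_card, hF]
    exact Nat.pow_le_pow_left (Omega.ML.Ex.Typ.two_le_q hF) 2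
  obtain ⟨W, -⟩ := exists_wframe hF (m := 2) (N := N) (by omega)
  obtain ⟨p0, hp0, -⟩ := exists_adm hF W
  exact D3_witt (KInstU.model hF (by omega) W) (AmbT.of_amb (amb_U hF W) 2) hp0 h4

end witt

/-! ### `²F₄(q)` -/

section twF

open Cfsg.Agent.SplitTwo Cfsg.Agent.SplitTwo.ZS Cfsg.Agent.TitsThree.RankTwoZ Cfsg.Agent.KFacts.TwF4
open Cfsg.Agent.KFacts.TwF4.Arc Cfsg.Agent.KFacts.TwF4.Irr Cfsg.Agent.H249 Cfsg.Agent.H392.TwFFour

theorem rk_U {F : Type*} [Field F] [Finite F] [CharP F 2] {σ : F →+* F} {G : Type*} [Group G] [Finite G]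
    (S : Full σ G) (h8 : 8 ≤ Nat.card F) : Rk 3 (J S.XZ 1 8) := by
  have h1 : Rk 3 (S.XZ 1) := by
    refine rk_of_par (S.o 0) (fun a b => (S.o_add 0 a b).symm) (fun x hx => ?_) ?_
    · have h2 : x ∈ S.R.X (od 0) := hx
      exact (S.mem_odd 0 x).1 h2
    · have h3 := Cfsg.Agent.H151.K4.TwF4.card_X_od S 0
      have h4 : Nat.card (S.XZ 1) = Nat.card F := h3
      rw [h4]
      exact h8
  refine rk_of_ext (V := J S.XZ 2 8) (X := S.XZ 1) ?_ (J_mono (by norm_num) le_rfl) (X_le_J le_rfl (by norm_num))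
    (fun u hu => ?_) (fun x hx hx' => ?_) h1
  · exact le_trans (J_mono (by norm_num) (by norm_num)) (S.zsys8.le_normalizer (a := 2) (b := 8) (by norm_num))
  · obtain ⟨x, hx, y, hy, e⟩ := S.zsys8.split_ll (a := 1) (b := 8) (by norm_num) (by norm_num) hu
    exact ⟨x, hx, y, hy, e⟩
  · exact S.zsys8.inter 1 x hx (J_mono (by norm_num) (by norm_num) hx')

/-- **`²F₄(q)`, `q ≥ 8`.** -/
theorem D3_tF4 {S : Type u} [Group S] [Finite S] (h : Lie.Iso2F4 S) : D3 S := by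
  obtain ⟨K, _, _, m, hm, hK, ⟨e⟩⟩ := h
  refine D3_congr e ?_
  have hch := Cfsg.Agent.ChevalleyStructure.TwF4.Twisted.charP_two hK
  have hfin : Finite ↥(Lie.twistedF4 K (2 ^ m)) := Finite.of_equiv S e.toEquiv
  obtain ⟨φ, hφ⟩ := Cfsg.Agent.ChevalleyStructure.TwF4.TwistedFix.exists_rln hK
  have hcard := Cfsg.Agent.S1068.result hK
  set R := Cfsg.Agent.KFacts.TwF4.Inst.full hK hφ with hS
  have hR : R.R.p = 2 := rfl
  have hq : Nat.card K = 2 ^ (2 * m + 1) := by rw [Nat.card_eq_fintype_card, hK]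
  have h8 : 8 ≤ Nat.card K := by
    rw [hq]
    calc 8 = 2 ^ 3 := by norm_num
      _ ≤ 2 ^ (2 * m + 1) := Nat.pow_le_pow_right (by norm_num) (by omega)
  have h4 : Odd (J R.XZ 1 8).index := by
    have h1 := (J R.XZ 1 8).card_mul_index
    rw [card_U, hcard, hq] at h1
    have h2 : (2 ^ (2 * m + 1)) ^ 12 * (J R.XZ 1 8).index = (2 ^ (2 * m + 1)) ^ 12 *
        ((2 ^ (2 * m + 1) - 1) * ((2 ^ (2 * m + 1)) ^ 3 + 1) * ((2 ^ (2 * m + 1)) ^ 4 - 1) *
          ((2 ^ (2 * m + 1)) ^ 6 + 1)) := by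
      rw [h1]; ring
    have h3 := Nat.eq_of_mul_eq_mul_left (by positivity) h2
    rw [h3]
    have e1 : ∀ k, 0 < k → Even ((2 ^ (2 * m + 1)) ^ k) := fun k hk =>
      ((even_two.pow_of_ne_zero (by omega)).pow_of_ne_zero hk.ne')
    have e2 : ∀ n : ℕ, 0 < n → Even n → Odd (n - 1) := fun n hn he => by
      obtain ⟨a, ha⟩ := he
      exact ⟨a - 1, by omega⟩
    refine ((Odd.mul (Odd.mul ?_ ?_) ?_)).mul ?_
    · exact e2 _ (by positivity) (even_two.pow_of_ne_zero (by omega))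
    · exact (e1 3 (by norm_num)).add_one
    · exact e2 _ (by positivity) (e1 4 (by norm_num))
    · exact (e1 6 (by norm_num)).add_one
  exact D3_of_subgroup (U := J R.XZ 1 8) (datF R hR).pU
    (fun h2 => (Nat.not_even_iff_odd.2 h4) (even_iff_two_dvd.2 h2)) (rk_U R h8)

end twF

end Cfsg.Agent.H151.K547
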