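import Cfsg.Agent.H151.K547.ExtRgd

/-!
# S4547: `D3 (AutExt τ)` by counting, and by the leaves of the diagram (helper151)

* `OutExp S N` : the order of an automorphism of 2-power order which meets `Inn S` trivially divides `N`;
* `RkS d S` : the Sylow 2-subgroups have rank at least `d`;
* `alt` : `OutExp S N`, `RkS d S`, `N < 2 d` give `D3 (AutExt τ)` or (`d ≤ N` and) `Spec τ N`;
* `ext_of_leaf` : a diagram with a leaf and a node which is not a leaf.
-/

set_option autoImplicit false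
set_option linter.unusedSectionVars false

open Cfsg

namespace Cfsg.Agent.H151.K547

open Cfsg.Agent.H821.K547

universe u v

section out

variable {S : Type u} [Group S]

/-- an exponent for the outer 2-automorphisms -/
def OutExp (S : Type u) [Group S] (N : ℕ) : Prop :=
  ∀ g : MulAut S, (∃ m : ℕ, g ^ 2 ^ m = 1) → (∀ (k : ℤ) (s : S), g ^ k = MulAut.conj s → g ^ k = 1) → orderOf g ∣ N

/-- the Sylow 2-subgroups have rank at least `d` -/
def RkS (d : ℕ) (S : Type u) [Group S] : Prop := ∀ Q : Sylow 2 S, Rk d Q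

/-- the class of `τ` has order `N = 2 ^ b` -/
def Spec (τ : MulAut S) (N : ℕ) : Prop := (∃ b : ℕ, N = 2 ^ b) ∧ ∀ j : ℕ, IsInn (τ ^ j) → N ∣ j

theorem outExp_of_hom [Finite S] {H : Type*} [Group H] (φ : Out S →* H) {N : ℕ} (hH : ∀ x : H, x ^ N = 1)
    (hker : Odd (Nat.card φ.ker)) : OutExp S N := by
  rintro g ⟨m, hm⟩ hdisj
  have hfin : Finite (MulAut S) := inferInstance
  set c := Nat.card φ.ker with hc
  have h1 : (QuotientGroup.mk' (Inn S) g) ^ N ∈ φ.ker := by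
    rw [MonoidHom.mem_ker, map_pow, hH]
  have h2 : ((QuotientGroup.mk' (Inn S) g) ^ N) ^ c = 1 := by
    have := pow_card_eq_one' (x := (⟨_, h1⟩ : φ.ker))
    exact congrArg Subtype.val this
  have h3 : g ^ (N * c) ∈ Inn S := by
    rw [← pow_mul, ← map_pow] at h2
    exact (QuotientGroup.eq_one_iff _).1 h2
  obtain ⟨s, hs⟩ := h3
  have h4 : g ^ (N * c) = 1 := by
    have := hdisj ((N * c : ℕ) : ℤ) s (by rw [zpow_natCast]; exact hs.symm)
    rwa [zpow_natCast] at this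
  have h5 : orderOf g ∣ N * c := orderOf_dvd_of_pow_eq_one h4
  have h6 : Nat.Coprime (orderOf g) c := by
    refine Nat.Coprime.coprime_dvd_left (orderOf_dvd_of_pow_eq_one hm) ?_
    exact Nat.Coprime.pow_left m (Nat.coprime_two_left.2 hker)
  exact h6.dvd_of_dvd_mul_right h5

theorem outExp_of_card [Finite S] {N : ℕ} (h : Nat.card (Out S) = N) : OutExp S N := by
  refine outExp_of_hom (MonoidHom.id _) (fun x => ?_) ?_
  · rw [← h]
    exact pow_card_eq_one'
  · rw [MonoidHom.ker_id, Subgroup.card_bot]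
    exact odd_one

variable {S' : Type v} [Group S']

/-- transport -/
def cg (e : S ≃* S') (τ : MulAut S) : MulAut S' := MulAut.congr e τ

theorem cg_apply (e : S ≃* S') (τ : MulAut S) (x : S') : cg e τ x = e (τ (e.symm x)) := rfl

theorem cg_conj (e : S ≃* S') (s : S) : cg e (MulAut.conj s) = MulAut.conj (e s) := by
  ext x
  rw [cg_apply, MulAut.conj_apply, MulAut.conj_apply, map_mul, map_mul, map_inv, MulEquiv.apply_symm_apply]

theorem cg_pow (e : S ≃* S') (τ : MulAut S) (n : ℕ) : cg e (τ ^ n) = (cg e τ) ^ n := map_pow (MulAut.congr e) τ n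

theorem cg_zpow (e : S ≃* S') (τ : MulAut S) (n : ℤ) : cg e (τ ^ n) = (cg e τ) ^ n := map_zpow (MulAut.congr e) τ n

theorem cg_symm (e : S ≃* S') (τ : MulAut S') : cg e (cg e.symm τ) = τ := by
  ext x
  rw [cg_apply, cg_apply, MulEquiv.symm_symm, MulEquiv.apply_symm_apply, MulEquiv.apply_symm_apply]

theorem isInn_cg {e : S ≃* S'} {τ : MulAut S} : IsInn (cg e τ) ↔ IsInn τ := by
  rw [isInn_iff, isInn_iff]
  constructor
  · rintro ⟨s, hs⟩
    refine ⟨e.symm s, ?_⟩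
    apply (MulAut.congr e).injective
    change cg e τ = cg e (MulAut.conj (e.symm s))
    rw [hs, cg_conj, MulEquiv.apply_symm_apply]
  · rintro ⟨s, rfl⟩
    exact ⟨e s, cg_conj e s⟩

theorem twoPow_iff {τ : MulAut S} : TwoPow τ ↔ ∃ k : ℕ, IsInn (τ ^ 2 ^ k) := Iff.rfl

theorem twoPow_cg {e : S ≃* S'} {τ : MulAut S} : TwoPow (cg e τ) ↔ TwoPow τ := by
  rw [twoPow_iff, twoPow_iff]
  refine exists_congr fun k => ?_
  rw [← cg_pow, isInn_cg]

theorem outExp_congr (e : S ≃* S') {N : ℕ} (h : OutExp S' N) : OutExp S N := by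
  rintro g ⟨m, hm⟩ hdisj
  have h1 : orderOf (cg e g) = orderOf g := MulEquiv.orderOf_eq (MulAut.congr e) g
  rw [← h1]
  refine h (cg e g) ⟨m, by rw [← cg_pow, hm]; exact map_one (MulAut.congr e)⟩ ?_
  intro k s hk
  have h2 : g ^ k = MulAut.conj (e.symm s) := by
    apply (MulAut.congr e).injective
    change cg e (g ^ k) = cg e (MulAut.conj (e.symm s))
    rw [cg_zpow, hk, cg_conj, MulEquiv.apply_symm_apply]
  rw [← cg_zpow, hdisj k _ h2]
  exact map_one (MulAut.congr e)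

theorem rkS_congr [Finite S] (e : S ≃* S') {d : ℕ} (h : RkS d S') : RkS d S := by
  intro P
  have h1 := h (P.mapSurjective (f := e.toMonoidHom) e.surjective)
  refine rk_congr ?_ h1
  exact (P : Subgroup S).equivMapOfInjective e.toMonoidHom e.injective

theorem rkS_of_subgroup [Finite S] {U : Subgroup S} (hU : IsPGroup 2 U) (hi : ¬ 2 ∣ U.index) {d : ℕ} (h : Rk d U) :
    RkS d S := by
  have : Fact (Nat.Prime 2) := ⟨Nat.prime_two⟩
  intro Q
  let P : Sylow 2 S := hU.toSylow hi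
  exact rk_congr (Sylow.equiv Q P) h

/-- a 2-group of the right order which embeds -/
theorem rkS_of_hom [Finite S] {U : Type*} [Group U] (f : U →* S) (hf : Function.Injective f)
    {n : ℕ} (hU : Nat.card U = 2 ^ n) (hidx : ¬ 2 ^ (n + 1) ∣ Nat.card S) {d : ℕ} (h : Rk d U) : RkS d S := by
  have : Fact (Nat.Prime 2) := ⟨Nat.prime_two⟩
  have e : U ≃* f.range := MonoidHom.ofInjective hf
  have hcard : Nat.card f.range = 2 ^ n := by rw [← Nat.card_congr e.toEquiv, hU]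
  refine rkS_of_subgroup (U := f.range) (IsPGroup.of_card hcard) ?_ (rk_congr e.symm h)
  rintro ⟨c, hc⟩
  apply hidx
  have h1 := f.range.card_mul_index
  rw [hcard, hc] at h1
  exact ⟨c, by rw [← h1, pow_succ]; ring⟩

theorem spec_cg {e : S ≃* S'} {τ : MulAut S} {N : ℕ} : Spec (cg e τ) N ↔ Spec τ N := by
  unfold Spec
  refine and_congr Iff.rfl (forall_congr' fun j => ?_)
  rw [← cg_pow, isInn_cg]

/-- an outer automorphism group of odd order -/
theorem isInn_of_odd [Finite S] (h : Odd (Nat.card (Out S))) {τ : MulAut S} (hτ : TwoPow τ) : IsInn τ := by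
  obtain ⟨k, hk⟩ := twoPow_iff.1 hτ
  have hfin : Finite (MulAut S) := inferInstance
  have h1 : (QuotientGroup.mk' (Inn S) τ) ^ 2 ^ k = 1 := by
    rw [← map_pow]
    obtain ⟨s, hs⟩ := isInn_iff.1 hk
    exact (QuotientGroup.eq_one_iff _).2 ⟨s, hs.symm⟩
  have h2 : orderOf (QuotientGroup.mk' (Inn S) τ) ∣ 1 := by
    rw [← Nat.Coprime.gcd_eq_one (Nat.Coprime.pow_left k (Nat.coprime_two_left.2 h) : Nat.Coprime (2 ^ k) (Nat.card (Out S)))]
    exact Nat.dvd_gcd (orderOf_dvd_of_pow_eq_one h1) (orderOf_dvd_natCard _)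
  have h3 : QuotientGroup.mk' (Inn S) τ = 1 := orderOf_eq_one_iff.1 (Nat.dvd_one.1 h2)
  obtain ⟨s, hs⟩ := (QuotientGroup.eq_one_iff _).1 h3
  exact isInn_iff.2 ⟨s, hs.symm⟩

theorem isInn_of_odd' [Finite S'] (e : S ≃* S') (h : Odd (Nat.card (Out S'))) {τ : MulAut S} (hτ : TwoPow τ) : IsInn τ :=
  isInn_cg.1 (isInn_of_odd h (twoPow_cg.2 hτ : TwoPow (cg e τ)))

/-- the class of `τ` -/
theorem orderOf_dvd_of_isInn {τ g : MulAut S} {U : Subgroup S} (G : GoodRep τ g U) {j : ℕ} (hj : IsInn (τ ^ j)) :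
    orderOf g ∣ j := by
  have h1 : g ∈ AutExt τ := by rw [← G.ext]; exact self_mem_autExt g
  -- `g = conj s * τ ^ i`
  obtain ⟨s, i, hg⟩ : ∃ (s : S) (i : ℤ), g = MulAut.conj s * τ ^ i := by
    rw [AutExt, Subgroup.mem_sup_of_normal_left] at h1
    obtain ⟨_, ⟨s, rfl⟩, _, ⟨i, rfl⟩, e⟩ := h1
    exact ⟨s, i, e.symm⟩
  have hq : ∀ x : MulAut S, (QuotientGroup.mk' (Inn S) x = 1 ↔ IsInn x) := by
    intro x
    rw [isInn_iff]
    constructor
    · intro h
      obtain ⟨s, hs⟩ := (QuotientGroup.eq_one_iff _).1 h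
      exact ⟨s, hs.symm⟩
    · rintro ⟨s, rfl⟩
      exact (QuotientGroup.eq_one_iff _).2 ⟨s, rfl⟩
  have h2 : IsInn (g ^ j) := by
    rw [← hq, map_pow, hg, map_mul, (hq _).2 (isInn_iff.2 ⟨s, rfl⟩), one_mul, map_zpow, ← zpow_natCast, ← zpow_mul,
      mul_comm i, zpow_mul, zpow_natCast, ← map_pow, (hq _).2 hj, one_zpow]
  obtain ⟨x, hx⟩ := isInn_iff.1 h2
  have h3 := G.disj (j : ℤ) x (by rw [zpow_natCast]; exact hx)
  rw [zpow_natCast] at h3
  exact orderOf_dvd_of_pow_eq_one h3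

end out

section alt

open CoxeterSystem Cfsg.Agent.ChevalleyStructure.CoxeterGeom Cfsg.Agent.Tits.Roots Cfsg.Agent.Tits.Core
  Cfsg.Agent.Nodes.Reps Cfsg.Agent.Nodes.BNOf Cfsg.Agent.Nodes.Bruhat
open Cfsg.Agent.KFacts.RgdDiag

variable {S : Type u} [Group S] [Finite S]

/-- **Counting.** -/
theorem alt [IsSimpleGroup S] {l : ℕ} (hl : 0 < l) {M : CoxeterMatrix (Fin l)} (hS : Omega.ML.Ex.Typ.HasRGDT 2 M S)
    {d N : ℕ} (hd : RkS d S) (hN : OutExp S N) (hN0 : 0 < N) (hNd : N < 2 * d) {τ : MulAut S} (hτ : TwoPow τ)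
    (hn : ¬ IsInn τ) : D3 (AutExt τ) ∨ (d ≤ N ∧ Spec τ N) := by
  have : Fact (Nat.Prime 2) := ⟨Nat.prime_two⟩
  obtain ⟨A, h, T, n, X, hW, R, hX⟩ := hS
  have : Finite M.Group := hW
  have : Nonempty (Fin l) := ⟨⟨0, hl⟩⟩
  have hG := H967.K4.gg_of_g1 (T := T) hX
  have hZ := center_eq_bot R
  obtain ⟨g, σ, G, D, -, -⟩ := exists_rep R hG hZ hτ hn
  have hdU : Rk d (RGD.Sup X (RGD.Pos M.toCoxeterSystem h)) := hd (R.isPGroup_Upos.toSylow (index_U' R hG))
  have h1 := hN g G.pow G.disj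
  rcases Nat.lt_or_ge (orderOf g) d with h2 | h2
  · exact Or.inl (D3_of_rk hZ G R.isPGroup_Upos (index_U' R hG) hdU h2)
  · right
    have h3 : N = orderOf g := by
      obtain ⟨c, hc⟩ := h1
      have h4 : c < 2 := by
        by_contra h5
        push Not at h5
        have : orderOf g * 2 ≤ orderOf g * c := Nat.mul_le_mul_left _ h5
        omega
      have h5 : c ≠ 0 := by
        rintro rfl
        omega
      have h6 : c = 1 := by omega
      rw [hc, h6, mul_one]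
    refine ⟨by rw [h3]; exact h2, ?_, fun j hj => ?_⟩
    · obtain ⟨m, hm⟩ := G.pow
      obtain ⟨k, -, hk⟩ := (Nat.dvd_prime_pow Nat.prime_two).1 (orderOf_dvd_of_pow_eq_one hm)
      exact ⟨k, h3.trans hk⟩
    · rw [h3]
      exact orderOf_dvd_of_isInn G hj

/-- a leaf of the diagram -/
def Leaf {l : ℕ} (M : CoxeterMatrix (Fin l)) (i : Fin l) : Prop :=
  ∀ j k, j ≠ i → k ≠ i → M i j ≠ 2 → M i k ≠ 2 → j = k

theorem leaf_iff {l : ℕ} {M : CoxeterMatrix (Fin l)} {σ : Equiv.Perm (Fin l)} (hσ : ∀ i j, M (σ i) (σ j) = M i j)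
    (i : Fin l) : Leaf M (σ i) ↔ Leaf M i := by
  constructor
  · intro h j k hj hk h1 h2
    apply σ.injective
    exact h (σ j) (σ k) (fun e => hj (σ.injective e)) (fun e => hk (σ.injective e)) (by rwa [hσ]) (by rwa [hσ])
  · intro h j k hj hk h1 h2
    obtain ⟨j, rfl⟩ := σ.surjective j
    obtain ⟨k, rfl⟩ := σ.surjective k
    rw [hσ] at h1 h2
    rw [h j k (fun e => hj (by rw [e])) (fun e => hk (by rw [e])) h1 h2]

/-- **A leaf and a node which is not a leaf.** -/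
theorem ext_of_leaf [IsSimpleGroup S] {l : ℕ} {M : CoxeterMatrix (Fin l)} (hS : Omega.ML.Ex.Typ.HasRGDT 2 M S)
    {i j : Fin l} (hi : Leaf M i) (hj : ¬ Leaf M j) {τ : MulAut S} (hτ : TwoPow τ) (hn : ¬ IsInn τ) :
    D3 (AutExt τ) := by
  have : Fact (Nat.Prime 2) := ⟨Nat.prime_two⟩
  obtain ⟨A, h, T, n, X, hW, R, hX⟩ := hS
  have : Finite M.Group := hW
  have : Nonempty (Fin l) := ⟨i⟩
  have hG := H967.K4.gg_of_g1 (T := T) hX
  refine D3_of_orbits R hG (center_eq_bot R) (J := {i | Leaf M i}) hi hj (fun g σ D i => ?_) hτ hn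
  exact leaf_iff (fun i j => D.matrix R i j) i

end alt

end Cfsg.Agent.H151.K547
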