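import Cfsg.Agent.H151.K547.ExtAlt

/-!
# S4547: the leaves of the diagrams (helper151)
-/

set_option autoImplicit false

open Cfsg

namespace Cfsg.Agent.H151.K547

open Cfsg.Agent.LieRecognition.BNCox (cA)
open Cfsg.Agent.LieRecognition.CoxClass (mA)

theorem cA_ne_two {n : ℕ} {i j : Fin n} (hne : j ≠ i) : cA n i j ≠ 2 ↔ (i : ℕ) + 1 = j ∨ (j : ℕ) + 1 = i := by
  have h1 : (i : ℕ) ≠ j := fun e => hne (Fin.ext e.symm)
  change mA i j ≠ 2 ↔ _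
  unfold mA
  rw [if_neg h1]
  split_ifs with h
  · simp [h]
  · simp [h]

theorem leaf_cA {n : ℕ} (hn : 3 ≤ n) : Leaf (cA n) ⟨0, by omega⟩ ∧ ¬ Leaf (cA n) ⟨1, by omega⟩ := by
  constructor
  · intro j k hj hk h1 h2
    rw [cA_ne_two hj] at h1
    rw [cA_ne_two hk] at h2
    apply Fin.ext
    change 0 + 1 = (j : ℕ) ∨ (j : ℕ) + 1 = 0 at h1
    change 0 + 1 = (k : ℕ) ∨ (k : ℕ) + 1 = 0 at h2
    omega
  · intro h
    have := h ⟨0, by omega⟩ ⟨2, by omega⟩ (by simp) (by simp) ((cA_ne_two (by simp)).2 (Or.inr rfl))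
      ((cA_ne_two (by simp)).2 (Or.inl rfl))
    simp at this

theorem B_ne_two {n : ℕ} (hn : 3 ≤ n) {i j : Fin n} (hne : j ≠ i) :
    CoxeterMatrix.B n i j ≠ 2 ↔ (i : ℕ) + 1 = j ∨ (j : ℕ) + 1 = i := by
  have h1 : i ≠ j := fun e => hne e.symm
  change (if i = j then 1
    else (if (i : ℕ) = n - 1 ∧ (j : ℕ) = n - 2 ∨ (j : ℕ) = n - 1 ∧ (i : ℕ) = n - 2 then 4
      else (if (j : ℕ) + 1 = i ∨ (i : ℕ) + 1 = j then 3 else 2))) ≠ 2 ↔ _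
  rw [if_neg h1]
  split_ifs with h2 h3
  · simp only [ne_eq, Nat.reduceEqDiff, not_false_eq_true, true_iff]
    omega
  · simp only [ne_eq, Nat.reduceEqDiff, not_false_eq_true, true_iff]
    omega
  · simp only [ne_eq, not_true_eq_false, false_iff]
    omega

theorem leaf_B {n : ℕ} (hn : 3 ≤ n) : Leaf (CoxeterMatrix.B n) ⟨0, by omega⟩ ∧
    ¬ Leaf (CoxeterMatrix.B n) ⟨1, by omega⟩ := by
  constructor
  · intro j k hj hk h1 h2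
    rw [B_ne_two hn hj] at h1
    rw [B_ne_two hn hk] at h2
    apply Fin.ext
    change 0 + 1 = (j : ℕ) ∨ (j : ℕ) + 1 = 0 at h1
    change 0 + 1 = (k : ℕ) ∨ (k : ℕ) + 1 = 0 at h2
    omega
  · intro h
    have := h ⟨0, by omega⟩ ⟨2, by omega⟩ (by simp) (by simp) ((B_ne_two hn (by simp)).2 (Or.inr rfl))
      ((B_ne_two hn (by simp)).2 (Or.inl rfl))
    simp at this

theorem D_ne_two {n : ℕ} {i j : Fin (n + 2)} (hne : j ≠ i) :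
    Nodes.TypeD.M n i j ≠ 2 ↔ Nodes.TypeD.Adj i j ∨ Nodes.TypeD.Adj j i := by
  have h1 : i ≠ j := fun e => hne e.symm
  change (if i = j then 1 else if Nodes.TypeD.Adj i j ∨ Nodes.TypeD.Adj j i then 3 else 2) ≠ 2 ↔ _
  rw [if_neg h1]
  split_ifs with h
  · simp [h]
  · simp [h]

theorem leaf_D (n : ℕ) : Leaf (Nodes.TypeD.M (n + 1)) ⟨n + 2, by omega⟩ ∧
    ¬ Leaf (Nodes.TypeD.M (n + 1)) ⟨n, by omega⟩ := by
  constructor
  · intro j k hj hk h1 h2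
    rw [D_ne_two hj] at h1
    rw [D_ne_two hk] at h2
    have e1 : (j : ℕ) ≠ n + 2 := fun e => hj (Fin.ext e)
    have e2 : (k : ℕ) ≠ n + 2 := fun e => hk (Fin.ext e)
    have e3 := j.2
    have e4 := k.2
    apply Fin.ext
    change ((j : ℕ) < n + 1 + 1 ∧ n + 2 + 1 = (j : ℕ) ∨ (j : ℕ) = n + 1 + 1 ∧ n + 2 + 2 = (j : ℕ)) ∨
      (n + 2 < n + 1 + 1 ∧ (j : ℕ) + 1 = n + 2 ∨ n + 2 = n + 1 + 1 ∧ (j : ℕ) + 2 = n + 2) at h1
    change ((k : ℕ) < n + 1 + 1 ∧ n + 2 + 1 = (k : ℕ) ∨ (k : ℕ) = n + 1 + 1 ∧ n + 2 + 2 = (k : ℕ)) ∨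
      (n + 2 < n + 1 + 1 ∧ (k : ℕ) + 1 = n + 2 ∨ n + 2 = n + 1 + 1 ∧ (k : ℕ) + 2 = n + 2) at h2
    omega
  · intro h
    have := h ⟨n + 1, by omega⟩ ⟨n + 2, by omega⟩ (by simp) (by simp)
      ((D_ne_two (by simp)).2 (Or.inl (Or.inl ⟨by change n + 1 < n + 1 + 1; omega, rfl⟩)))
      ((D_ne_two (by simp)).2 (Or.inl (Or.inr ⟨rfl, rfl⟩)))
    simp at this

instance decLeaf {l : ℕ} (M : CoxeterMatrix (Fin l)) (i : Fin l) : Decidable (Leaf M i) := by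
  unfold Leaf
  infer_instance

theorem leaf_F4 : Leaf CoxeterMatrix.F₄ 0 ∧ ¬ Leaf CoxeterMatrix.F₄ 1 := by decide

theorem leaf_E6 : Leaf CoxeterMatrix.E₆ 0 ∧ ¬ Leaf CoxeterMatrix.E₆ 3 := by decide

theorem leaf_E7 : Leaf CoxeterMatrix.E₇ 0 ∧ ¬ Leaf CoxeterMatrix.E₇ 3 := by decide

theorem leaf_E8 : Leaf CoxeterMatrix.E₈ 0 ∧ ¬ Leaf CoxeterMatrix.E₈ 3 := by decide

end Cfsg.Agent.H151.K547
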