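import Cfsg.Agent.H151.K547.ExtAbs

/-!
# S4547: the normal form of an outer 2-automorphism of a group of Lie type of characteristic two (helper151)

* `exists_rep` : for `τ` of 2-power order modulo inner automorphisms, not inner, there is `g` with `GoodRep τ g U`
  and `Diag T X g σ` (`g` fixes `U`, `U⁻`, `T` and permutes the simple root groups);
* `D3_of_orbits` : a proper nonempty set of nodes stable under the diagram symmetries gives `D3 (AutExt τ)`;
* `D3_of_rk'` : `Rk d U` and `2 ^ m < d`, `τ ^ (2 ^ m)` inner.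
-/

set_option autoImplicit false
set_option linter.unusedSectionVars false

open Cfsg

namespace Cfsg.Agent.H151.K547

open Cfsg.Agent.H821.K547

open CoxeterSystem Cfsg.Agent.ChevalleyStructure.CoxeterGeom Cfsg.Agent.Tits.Roots Cfsg.Agent.Tits.Core
  Cfsg.Agent.Tits.Exchange Cfsg.Agent.Nodes.Reps Cfsg.Agent.Nodes.BNOf Cfsg.Agent.Nodes.StabComb
  Cfsg.Agent.Nodes.Bruhat Cfsg.Agent.Nodes.OppDec Cfsg.Agent.Nodes.LeviDec Cfsg.Agent.Nodes.BNOf.RGD
  Cfsg.Agent.KFacts.RgdOpp Cfsg.Agent.KFacts.RgdAut Cfsg.Agent.KFacts.RgdDiag Cfsg.Agent.Nodes.NormalForm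

section gen

universe u

variable {S : Type u} [Group S]

theorem conj_mem_autExt (τ : MulAut S) (s : S) : MulAut.conj s ∈ AutExt τ := Subgroup.mem_sup_left ⟨s, rfl⟩

theorem self_mem_autExt (τ : MulAut S) : τ ∈ AutExt τ := Subgroup.mem_sup_right (Subgroup.mem_zpowers τ)

theorem autExt_le {τ g : MulAut S} (h : g ∈ AutExt τ) : AutExt g ≤ AutExt τ := by
  rw [AutExt, sup_le_iff]
  exact ⟨le_sup_left, by rw [Subgroup.zpowers_le]; exact h⟩

theorem autExt_eq {τ g : MulAut S} (h : g ∈ AutExt τ) (h' : τ ∈ AutExt g) : AutExt g = AutExt τ :=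
  le_antisymm (autExt_le h) (autExt_le h')

theorem autExt_conj_mul (τ : MulAut S) (s : S) : AutExt (MulAut.conj s * τ) = AutExt τ := by
  apply autExt_eq
  · exact mul_mem (conj_mem_autExt τ s) (self_mem_autExt τ)
  · have h1 := mul_mem (conj_mem_autExt (MulAut.conj s * τ) s⁻¹) (self_mem_autExt (MulAut.conj s * τ))
    rwa [map_inv, inv_mul_cancel_left] at h1

theorem isInn_iff {τ : MulAut S} : IsInn τ ↔ ∃ s : S, τ = MulAut.conj s := by
  constructor
  · rintro ⟨s, hs⟩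
    exact ⟨s, MulEquiv.ext hs⟩
  · rintro ⟨s, rfl⟩
    exact ⟨s, fun _ => rfl⟩

/-- powers of `conj s * τ` modulo inner automorphisms -/
theorem pow_conj_mul (τ : MulAut S) (s : S) (n : ℕ) : ∃ x : S, (MulAut.conj s * τ) ^ n = MulAut.conj x * τ ^ n := by
  induction n with
  | zero => exact ⟨1, by rw [pow_zero, pow_zero, map_one, one_mul]⟩
  | succ n ih =>
    obtain ⟨x, hx⟩ := ih
    refine ⟨x * (τ ^ n) s, ?_⟩
    rw [pow_succ, hx, pow_succ, map_mul]
    have h1 : MulAut.conj ((τ ^ n) s) = τ ^ n * MulAut.conj s * (τ ^ n)⁻¹ := by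
      ext y
      change (τ ^ n) s * y * ((τ ^ n) s)⁻¹ = (τ ^ n) (s * ((τ ^ n)⁻¹ y) * s⁻¹)
      rw [map_mul, map_mul, map_inv, MulAut.apply_inv_self]
    rw [h1]
    group

theorem twoPow_conj_mul {τ : MulAut S} (h : TwoPow τ) (s : S) :
    ∃ (k : ℕ) (x : S), (MulAut.conj s * τ) ^ 2 ^ k = MulAut.conj x := by
  obtain ⟨k, y, hy⟩ := h
  have hy' : τ ^ 2 ^ k = MulAut.conj y := MulEquiv.ext hy
  obtain ⟨x, hx⟩ := pow_conj_mul τ s (2 ^ k)
  exact ⟨k, x * y, by rw [hx, hy', map_mul]⟩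

/-- the odd power -/
theorem exists_oddPow [Finite S] {α : MulAut S} {k : ℕ} {x : S} (hα : α ^ 2 ^ k = MulAut.conj x) :
    ∃ r m : ℕ, Odd r ∧ (α ^ r) ^ 2 ^ m = 1 ∧ AutExt (α ^ r) = AutExt α := by
  have hfin : Finite (MulAut S) := inferInstance
  obtain ⟨m, r, hr, he⟩ := Nat.exists_eq_two_pow_mul_odd (n := orderOf α) (orderOf_pos α).ne'
  refine ⟨r, m, hr, ?_, ?_⟩
  · rw [← pow_mul, mul_comm, ← he, pow_orderOf_eq_one]
  · apply autExt_eq (pow_mem (self_mem_autExt α) r)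
    have hco : IsCoprime (r : ℤ) ((2 ^ k : ℕ) : ℤ) := by
      rw [Nat.isCoprime_iff_coprime]
      exact Nat.Coprime.pow_right k (Nat.coprime_two_right.2 hr)
    obtain ⟨u, v, huv⟩ := hco
    have h1 : α = (α ^ r) ^ u * (α ^ 2 ^ k) ^ v := by
      rw [← zpow_natCast α r, ← zpow_natCast α (2 ^ k), ← zpow_mul, ← zpow_mul, ← zpow_add, mul_comm (r : ℤ) u,
        mul_comm ((2 ^ k : ℕ) : ℤ) v, huv, zpow_one]
    rw [h1]
    refine mul_mem (zpow_mem ?_ u) (zpow_mem ?_ v)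
    · rw [← h1]
      exact self_mem_autExt _
    · rw [← h1, hα]
      exact conj_mem_autExt _ x

end gen

section rgd

variable {I W : Type*} {Y : Type*} [Fintype I] [DecidableEq I] [Group W] [Group Y] {M : CoxeterMatrix I}
  {cs : CoxeterSystem M W} {A : I → I → ℤ} {h : IsCartan M A} {T : Subgroup Y} {n : I → Y}
  {X : (I → ℤ) → Subgroup Y} (R : RGD cs h 2 T n X)

include R

theorem index_U' [Finite Y] [Finite W] (hG : GG cs h T X = ⊤) : ¬ 2 ∣ (RGD.Sup X (RGD.Pos cs h)).index :=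
  fun h2 => (Nat.not_even_iff_odd.2 (H967.K4.odd_index_U R hG)) (even_iff_two_dvd.2 h2)

/-- an inner automorphism of 2-power order fixing `U` and `U⁻` is trivial -/
theorem eq_one_of_conj [Finite W] (hG : GG cs h T X = ⊤) {s : Y} {b : ℕ} (hs : s ^ 2 ^ b = 1)
    (hU : Fix (MulAut.conj s) (RGD.Sup X (RGD.Pos cs h))) (hUN : Fix (MulAut.conj s) (UN cs h X)) : s = 1 := by
  have key : ∀ {H : Subgroup Y}, Fix (MulAut.conj s) H → s ∈ Subgroup.normalizer (H : Set Y) := by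
    intro H hH
    rw [Subgroup.mem_normalizer_iff]
    intro x
    exact (hH x).symm
  have hB : s ∈ RGD.B cs h T X := by
    rw [← normalizer_U' R hG]
    exact key hU
  have hBN : s ∈ BN cs h T X := by
    rw [← B_opp, ← normalizer_U' (opp R) (by rw [GG_opp, hG]), U_opp]
    exact key hUN
  exact eq_one_of_mem_U_of_mem_BN R (R.mem_U_of_mem_B hB hs) hBN

/-- some inner automorphism followed by `τ` fixes `U` -/
theorem exists_fix_U [Finite Y] [Finite W] (hG : GG cs h T X = ⊤) (τ : MulAut Y) :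
    ∃ s : Y, Fix (MulAut.conj s * τ) (RGD.Sup X (RGD.Pos cs h)) := by
  have : Fact (Nat.Prime 2) := ⟨Nat.prime_two⟩
  set U := RGD.Sup X (RGD.Pos cs h) with hUdef
  let P : Sylow 2 Y := R.isPGroup_Upos.toSylow (index_U' R hG)
  have hP : (P : Subgroup Y) = U := rfl
  let Q : Sylow 2 Y := P.mapSurjective (f := τ.toMonoidHom) τ.surjective
  have hQ : (Q : Subgroup Y) = U.map τ.toMonoidHom := rfl
  obtain ⟨s, hs⟩ := MulAction.exists_smul_eq Y Q P
  refine ⟨s, ?_⟩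
  rw [fix_iff]
  have h1 : ((s • Q : Sylow 2 Y) : Subgroup Y) = U := by rw [hs, hP]
  rw [Sylow.coe_subgroup_smul, hQ] at h1
  have h2 : (MulAut.conj s * τ).toMonoidHom = (MulAut.conj s).toMonoidHom.comp τ.toMonoidHom := rfl
  rw [h2, ← Subgroup.map_map]
  exact h1

/-- **The normal form.** -/
theorem exists_rep [Finite Y] [Finite W] (hG : GG cs h T X = ⊤) (hZ : Subgroup.center Y = ⊥) {τ : MulAut Y}
    (hτ : TwoPow τ) (hn : ¬ IsInn τ) :
    ∃ (g : MulAut Y) (σ : Equiv.Perm I), GoodRep τ g (RGD.Sup X (RGD.Pos cs h)) ∧ Diag T X g σ ∧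
      Fix g (UN cs h X) ∧ Fix g (RGD.B cs h T X) := by
  obtain ⟨s, hs⟩ := exists_fix_U R hG τ
  obtain ⟨u, hu, hU, hB, hUN, hBN, hT⟩ := exists_frame R hG hs
  obtain ⟨σ, D⟩ := exists_diag R hG hU hUN
  set α : MulAut Y := MulAut.conj u * (MulAut.conj s * τ) with hα
  have hα' : α = MulAut.conj (u * s) * τ := by rw [hα, map_mul, mul_assoc]
  obtain ⟨k, x, hx⟩ := twoPow_conj_mul hτ (u * s)
  rw [← hα'] at hx
  obtain ⟨r, m, hr, hm, hext⟩ := exists_oddPow hx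
  have hE : AutExt (α ^ r) = AutExt τ := by
    rw [hext, hα', autExt_conj_mul]
  have hpow : ∀ {H : Subgroup Y}, Fix α H → ∀ j : ℕ, Fix (α ^ j) H := by
    intro H hH j
    induction j with
    | zero => intro x; exact Iff.rfl
    | succ j ih => rw [pow_succ]; exact ih.mul hH
  have hcj : ∀ s : Y, MulAut.conj s = 1 → s = 1 := by
    intro s hs
    have h1 : s ∈ Subgroup.center Y := by
      rw [Subgroup.mem_center_iff]
      intro x
      have h2 := DFunLike.congr_fun hs x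
      rw [MulAut.conj_apply, MulAut.one_apply] at h2
      exact (mul_inv_eq_iff_eq_mul.1 h2).symm
    rwa [hZ, Subgroup.mem_bot] at h1
  refine ⟨α ^ r, σ ^ r, ⟨hE, ⟨m, hm⟩, ?_, ?_, hpow hU r⟩, D.pow r, hpow hUN r, hpow hB r⟩
  · intro h1
    apply hn
    rw [isInn_iff]
    rw [h1] at hE
    have h2 := self_mem_autExt τ
    rw [← hE, AutExt, Subgroup.zpowers_one_eq_bot, sup_bot_eq] at h2
    obtain ⟨s, hs⟩ := h2
    exact ⟨s, hs.symm⟩
  · intro j s hj
    have hfix : ∀ {H : Subgroup Y}, Fix α H → Fix (MulAut.conj s) H := by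
      intro H hH
      rw [← hj]
      exact fun x => fix_zpow (hpow hH r) (Subgroup.zpow_mem_zpowers _ j) x
    have h1 : MulAut.conj (s ^ 2 ^ m) = 1 := by
      rw [map_pow, ← hj, ← zpow_natCast, ← zpow_mul, mul_comm, zpow_mul, zpow_natCast, hm, one_zpow]
    have h2 : s = 1 := eq_one_of_conj R hG (hcj _ h1) (hfix hU) (hfix hUN)
    rw [hj, h2, map_one]

/-- the homomorphisms `U → C₂` which vanish outside the simple root groups of `J` -/
def homJ (J : Set I) : Subgroup (↥(RGD.Sup X (RGD.Pos cs h)) →* C2) where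
  carrier := {l | ∀ x ∈ RGD.Pos cs h, (∀ i ∈ J, x ≠ sr i) → ∀ u : ↥(RGD.Sup X (RGD.Pos cs h)), (u : Y) ∈ X x → l u = 1}
  one_mem' := fun _ _ _ _ _ => rfl
  mul_mem' := fun {a b} ha hb x hx hJ u hu => by
    rw [MonoidHom.mul_apply, ha x hx hJ u hu, hb x hx hJ u hu, mul_one]
  inv_mem' := fun {a} ha x hx hJ u hu => by
    rw [MonoidHom.inv_apply, ha x hx hJ u hu, inv_one]

theorem homJ_ne_bot [Finite Y] [Finite W] {J : Set I} {i : I} (hi : i ∈ J) : homJ (cs := cs) (h := h) (X := X) J ≠ ⊥ := by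
  obtain ⟨f, hf⟩ := rk_X R i
  intro hbot
  let c : Multiplicative (Fin 1 → ZMod 2) →* C2 :=
    { toFun := fun x => Multiplicative.ofAdd (Multiplicative.toAdd x 0)
      map_one' := rfl
      map_mul' := fun _ _ => rfl }
  let l : ↥(RGD.Sup X (RGD.Pos cs h)) →* C2 := (c.comp f).comp (H641.Sd.retr R i)
  have h1 : l ∈ homJ (cs := cs) (h := h) (X := X) J := by
    intro x hx hJ u hu
    change c (f (H641.Sd.retr R i u)) = 1
    rw [H641.Sd.retr_ne R hx (hJ i hi) hu, map_one, map_one]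
  rw [hbot, Subgroup.mem_bot] at h1
  obtain ⟨a, ha⟩ := hf (Multiplicative.ofAdd fun _ => 1)
  have h2 : l ⟨a, RGD.le_Sup (H641.Sd.sr_mem_Pos R i) a.2⟩ = 1 := by rw [h1]; rfl
  change c (f (H641.Sd.retr R i ⟨a, _⟩)) = 1 at h2
  rw [H641.Sd.retr_self R (u := ⟨a, RGD.le_Sup (H641.Sd.sr_mem_Pos R i) a.2⟩) a.2] at h2
  have h3 : (⟨((⟨a, RGD.le_Sup (H641.Sd.sr_mem_Pos R i) a.2⟩ : ↥(RGD.Sup X (RGD.Pos cs h))) : Y), a.2⟩ : ↥(X (sr i))) = a := rfl
  rw [h3, ha] at h2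
  exact absurd h2 (by decide)

theorem homJ_stable [Finite Y] [Finite W] {g : MulAut Y} {σ : Equiv.Perm I} (D : Diag T X g σ)
    (hf : Fix g (RGD.Sup X (RGD.Pos cs h))) {J : Set I} (hJ : ∀ i, σ i ∈ J → i ∈ J) {l : ↥(RGD.Sup X (RGD.Pos cs h)) →* C2}
    (hl : l ∈ homJ (cs := cs) (h := h) (X := X) J) :
    l.comp (resU hf) ∈ homJ (cs := cs) (h := h) (X := X) J := by
  have hσ := fun i j => D.matrix R i j
  obtain ⟨ρ, hρ1, hρ2, hρ3⟩ := D.exists_rootMap R hσ
  have hsr : ∀ i, ρ (sr i) = sr (σ i) := by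
    intro i
    have := hρ2 1 i
    rwa [map_one, map_one, Module.End.one_apply, map_one, Module.End.one_apply] at this
  intro x hx hxJ u hu
  have hpos : ρ x ∈ RGD.Pos cs h := by
    refine ⟨(hρ1 x hx.1).1, ?_⟩
    by_contra hneg
    have h1 : ρ x ≤ 0 := neg_nonneg.1 ((hρ1 x hx.1).1.not_nonneg_iff_neg.1 hneg)
    apply X_ne_bot R hx.1
    rw [eq_bot_iff]
    intro y hy
    have h2 := ((hρ1 x hx.1).2 y).2 hy
    have h3 := eq_one_of_mem_U_of_mem_BN R ((hf y).2 (RGD.le_Sup hx hy)) (X_le_BN (hρ1 x hx.1).1 h1 h2)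
    rw [Subgroup.mem_bot]
    exact (map_eq_one_iff g g.injective).1 h3
  refine hl (ρ x) hpos ?_ _ (((hρ1 x hx.1).2 u).2 hu)
  intro i hi he
  refine hxJ (σ.symm i) (hJ _ (by rw [Equiv.apply_symm_apply]; exact hi)) ?_
  apply X_injective R hx.1 (isRoot_sr cs h _)
  ext y
  rw [← (hρ1 x hx.1).2 y, ← (hρ1 _ (isRoot_sr cs h (σ.symm i))).2 y, hsr, Equiv.apply_symm_apply, he]

/-- **Two orbits of nodes.** -/
theorem D3_of_orbits [Finite Y] [Finite W] (hG : GG cs h T X = ⊤) (hZ : Subgroup.center Y = ⊥) {J : Set I}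
    {i j : I} (hi : i ∈ J) (hj : j ∉ J)
    (hJ : ∀ (g : MulAut Y) (σ : Equiv.Perm I), Diag T X g σ → ∀ i, σ i ∈ J ↔ i ∈ J)
    {τ : MulAut Y} (hτ : TwoPow τ) (hn : ¬ IsInn τ) : D3 (AutExt τ) := by
  obtain ⟨g, σ, G, D, -, -⟩ := exists_rep R hG hZ hτ hn
  obtain ⟨m, hm⟩ := G.pow
  obtain ⟨l, hl, hl1, hlg⟩ := exists_inv G.fix hm (homJ (cs := cs) (h := h) (X := X) J)
    (fun l hl => homJ_stable R D G.fix (fun i => (hJ g σ D i).1) hl) (homJ_ne_bot R hi)
  obtain ⟨l', hl', hl1', hlg'⟩ := exists_inv G.fix hm (homJ (cs := cs) (h := h) (X := X) Jᶜ)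
    (fun l hl => homJ_stable R D G.fix (J := Jᶜ) (fun i hi h1 => hi ((hJ g σ D i).2 h1)) hl) (homJ_ne_bot R (i := j) hj)
  refine D3_of_rep hZ G R.isPGroup_Upos (index_U' R hG) hl1 hl1' ?_ hlg hlg'
  rintro rfl
  apply hl1
  -- `l` vanishes on all root groups
  have key : ∀ x ∈ RGD.Pos cs h, ∀ u : ↥(RGD.Sup X (RGD.Pos cs h)), (u : Y) ∈ X x → l u = 1 := by
    intro x hx u hu
    by_cases hxJ : ∀ i ∈ J, x ≠ sr i
    · exact hl x hx hxJ u hu
    · push Not at hxJ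
      obtain ⟨a, ha, rfl⟩ := hxJ
      refine hl' _ hx (fun b hb e => hb ?_) u hu
      rw [← Cfsg.Agent.Nodes.sr_injective e]
      exact ha
  have h1 : RGD.Sup X (RGD.Pos cs h) ≤ l.ker.map (Subgroup.subtype _) := by
    refine RGD.Sup_le fun x hx y hy => ?_
    exact ⟨⟨y, RGD.le_Sup hx hy⟩, key x hx ⟨y, RGD.le_Sup hx hy⟩ hy, rfl⟩
  ext u
  obtain ⟨v, hv, hvu⟩ := h1 u.2
  have h2 : v = u := Subtype.ext hvu
  rw [← h2]
  exact hv

/-- **Counting.** -/
theorem D3_of_rk' [Finite Y] [Finite W] (hG : GG cs h T X = ⊤) (hZ : Subgroup.center Y = ⊥) {d : ℕ}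
    (hd : Rk d (RGD.Sup X (RGD.Pos cs h))) {τ : MulAut Y} (hτ : TwoPow τ) (hn : ¬ IsInn τ)
    (hord : ∀ g : MulAut Y, AutExt g = AutExt τ → (∃ m : ℕ, g ^ 2 ^ m = 1) →
      (∀ (k : ℤ) (s : Y), g ^ k = MulAut.conj s → g ^ k = 1) → orderOf g < d) : D3 (AutExt τ) := by
  obtain ⟨g, σ, G, D, -, -⟩ := exists_rep R hG hZ hτ hn
  exact D3_of_rk hZ G R.isPGroup_Upos (index_U' R hG) hd (hord g G.ext G.pow G.disj)

/-- the centre is trivial -/
theorem center_eq_bot [Finite Y] [Finite W] [IsSimpleGroup Y] [Nonempty I] : Subgroup.center Y = ⊥ := by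
  rcases (inferInstance : (Subgroup.center Y).Normal).eq_bot_or_eq_top with h1 | h1
  · exact h1
  · exfalso
    obtain ⟨i⟩ := ‹Nonempty I›
    apply R.notp i
    have h2 : X (sr i) ≤ Subgroup.normalizer (X (-sr i) : Set Y) := by
      intro a _
      rw [Subgroup.mem_normalizer_iff]
      intro b
      have h3 : a ∈ Subgroup.center Y := by rw [h1]; trivial
      rw [Subgroup.mem_center_iff] at h3
      rw [← h3 b, mul_inv_cancel_right]
    exact IsPGroup.to_sup_of_normal_right' (R.pgrp i) (R.pgrp' (isRoot_sr cs h i).neg) h2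

end rgd

end Cfsg.Agent.H151.K547
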