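import Cfsg.Agent.H151.K547.ExtLeaf
import Cfsg.Agent.H151.K547.D3Rows
import Cfsg.Agent.H174.K547.RankOne
import Cfsg.Agent.S2600
import Cfsg.Agent.S2601
import Cfsg.Agent.S2602
import Cfsg.Agent.S2603
import Cfsg.Agent.S2121
import Cfsg.Agent.S2126
import Cfsg.Agent.S2128
import Cfsg.Agent.S2129

/-!
# S4547: `D3 (AutExt τ)` for the groups of Lie type of characteristic two (helper151)

`d3_ext_two` : `D3 (AutExt τ)` for every outer 2-automorphism `τ` of a simple group of Lie type of characteristic two,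
or `Special τ` : `PSL₂(2^f)`, `PSU₃(2^f)`, `Sp₄(2^f)` with the class of `τ` of order `f`, `2 f`, `2 f` (a power of two),
or `PSL₃(2)`.
-/

set_option autoImplicit false
set_option linter.unusedSectionVars false

open Cfsg

namespace Cfsg.Agent.H151.K547

open Cfsg.Agent.H821.K547 Cfsg.Agent.Omega.ML.Ex.Typ

universe u v

/-! ### the exponents -/

section exps

theorem pow_mzmod {N : ℕ} (hN : 0 < N) (x : Multiplicative (ZMod N)) : x ^ N = 1 := by
  have : NeZero N := ⟨hN.ne'⟩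
  have h1 := pow_card_eq_one' (x := x)
  rwa [Nat.card_congr Multiplicative.toAdd, Nat.card_zmod] at h1

theorem odd_gcd_pred (n : ℕ) {f : ℕ} (hf : 1 ≤ f) : Odd (Nat.gcd n (2 ^ f - 1)) := by
  refine Odd.of_dvd_nat ?_ (Nat.gcd_dvd_right _ _)
  obtain ⟨a, ha⟩ : Even (2 ^ f) := even_two.pow_of_ne_zero (by omega)
  have : 0 < 2 ^ f := by positivity
  exact ⟨a - 1, by omega⟩

theorem odd_gcd_succ (n : ℕ) {f : ℕ} (hf : 1 ≤ f) : Odd (Nat.gcd n (2 ^ f + 1)) := by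
  refine Odd.of_dvd_nat ?_ (Nat.gcd_dvd_right _ _)
  exact (even_two.pow_of_ne_zero (by omega)).add_one

theorem outExp_psl2 {F : Type u} [Field F] [Fintype F] {f : ℕ} (hf : 2 ≤ f) (hF : Fintype.card F = 2 ^ f) :
    OutExp (Matrix.ProjectiveSpecialLinearGroup (Fin 2) F) f := by
  have : Fact (Nat.Prime 2) := ⟨Nat.prime_two⟩
  have : Finite (Matrix.ProjectiveSpecialLinearGroup (Fin 2) F) := Quotient.finite _
  obtain ⟨φ, -, -, hk⟩ := S2602.result (p := 2) (f := f) (by omega) hF (by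
    calc 4 = 2 ^ 2 := by norm_num
      _ ≤ 2 ^ f := Nat.pow_le_pow_right (by norm_num) hf)
  refine outExp_of_hom φ (pow_mzmod (by omega)) ?_
  rw [hk]
  exact odd_gcd_pred 2 (by omega)

theorem outExp_psl3 {F : Type u} [Field F] [Fintype F] {f : ℕ} (hf : 1 ≤ f) (hF : Fintype.card F = 2 ^ f) :
    OutExp (Matrix.ProjectiveSpecialLinearGroup (Fin 3) F) (2 * f) := by
  have : Fact (Nat.Prime 2) := ⟨Nat.prime_two⟩
  have : Finite (Matrix.ProjectiveSpecialLinearGroup (Fin 3) F) := Quotient.finite _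
  obtain ⟨φ, -, -, hk⟩ := S2601.result (p := 2) (f := f) (n := 3) hf hF le_rfl
  refine outExp_of_hom φ (fun x => ?_) (by rw [hk]; exact odd_gcd_pred 3 hf)
  have : NeZero f := ⟨by omega⟩
  have h1 := pow_card_eq_one' (x := x)
  rw [Nat.card_congr Multiplicative.toAdd, Nat.card_prod, Nat.card_zmod, Nat.card_zmod] at h1
  rwa [mul_comm]

/-- the precise bound for `PSL₃` -/
theorem outExp_psl3' {F : Type u} [Field F] [Fintype F] {f : ℕ} (hf : 2 ≤ f) (hF : Fintype.card F = 2 ^ f)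
    {g : MulAut (Matrix.ProjectiveSpecialLinearGroup (Fin 3) F)} (hpow : ∃ m : ℕ, g ^ 2 ^ m = 1)
    (hdisj : ∀ (k : ℤ) s, g ^ k = MulAut.conj s → g ^ k = 1) : orderOf g < f + 1 := by
  have : Fact (Nat.Prime 2) := ⟨Nat.prime_two⟩
  have : Finite (Matrix.ProjectiveSpecialLinearGroup (Fin 3) F) := Quotient.finite _
  obtain ⟨φ, -, -, hk⟩ := S2601.result (p := 2) (f := f) (n := 3) (by omega) hF le_rfl
  have h1 : OutExp (Matrix.ProjectiveSpecialLinearGroup (Fin 3) F) (Nat.lcm f 2) := by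
    refine outExp_of_hom φ (fun x => ?_) (by rw [hk]; exact odd_gcd_pred 3 (by omega))
    apply Multiplicative.toAdd.injective
    change (Nat.lcm f 2) • (Multiplicative.toAdd x) = 0
    have ha : ∀ y : ZMod f, (Nat.lcm f 2) • y = 0 := by
      intro y
      obtain ⟨c, hc⟩ := Nat.dvd_lcm_left f 2
      rw [hc, mul_comm, mul_smul, nsmul_eq_mul f y, ZMod.natCast_self, zero_mul, smul_zero]
    have hb : ∀ y : ZMod 2, (Nat.lcm f 2) • y = 0 := by
      intro y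
      obtain ⟨c, hc⟩ := Nat.dvd_lcm_right f 2
      rw [hc, mul_comm, mul_smul, nsmul_eq_mul 2 y, ZMod.natCast_self, zero_mul, smul_zero]
    exact Prod.ext (ha _) (hb _)
  have h2 := h1 g hpow hdisj
  obtain ⟨m, hm⟩ := hpow
  obtain ⟨k, -, hk⟩ := (Nat.dvd_prime_pow Nat.prime_two).1 (orderOf_dvd_of_pow_eq_one hm)
  rcases Nat.even_or_odd f with he | ho
  · have h3 : Nat.lcm f 2 = f := Nat.lcm_eq_left (even_iff_two_dvd.1 he)
    rw [h3] at h2
    exact Nat.lt_succ_of_le (Nat.le_of_dvd (by omega) h2)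
  · have h3 : orderOf g ∣ 2 := by
      have h4 : orderOf g ∣ f * 2 := h2.trans (Nat.lcm_dvd_mul f 2)
      have h5 : Nat.Coprime (orderOf g) f := by
        rw [hk]
        exact Nat.Coprime.pow_left k (Nat.coprime_two_left.2 ho)
      exact h5.dvd_of_dvd_mul_left h4
    exact Nat.lt_succ_of_le ((Nat.le_of_dvd (by norm_num) h3).trans hf)

theorem outExp_psp4 {F : Type u} [Field F] [Fintype F] {f : ℕ} (hf : 1 ≤ f) (hF : Fintype.card F = 2 ^ f) :
    OutExp (PSp 2 F) (2 * f) := by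
  have : Finite (PSp 2 F) := inferInstance
  exact outExp_of_card (S2600.result hf hF).2

theorem outExp_psu {F : Type u} [Field F] [Fintype F] {f n : ℕ} (hf : 1 ≤ f) (hF : Fintype.card F = (2 ^ f) ^ 2)
    (hn : 3 ≤ n) (h32 : ¬ (n = 3 ∧ 2 ^ f = 2)) : OutExp (PSU n F (2 ^ f)) (2 * f) := by
  have : Fact (Nat.Prime 2) := ⟨Nat.prime_two⟩
  have : Finite (PSU n F (2 ^ f)) := inferInstance
  obtain ⟨φ, -, -, hk⟩ := S2603.result (p := 2) (f := f) (q := 2 ^ f) hf rfl hF hn h32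
  refine outExp_of_hom φ (pow_mzmod (by omega)) ?_
  rw [hk]
  exact odd_gcd_succ n hf

theorem outExp_G2 {F : Type u} [Field F] [Fintype F] [CharP F 2] {f : ℕ} (hf : 2 ≤ f) (hF : Fintype.card F = 2 ^ f) :
    OutExp ↥(Lie.chevG2.group F) f := by
  have : Fact (Nat.Prime 2) := ⟨Nat.prime_two⟩
  have h1 := S2121.result (F := F) 2 f hF (by
    calc 3 ≤ 2 ^ 2 := by norm_num
      _ ≤ 2 ^ f := Nat.pow_le_pow_right (by norm_num) hf)
  rw [if_neg (by norm_num)] at h1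
  exact outExp_of_card h1

theorem outExp_tD4 {K : Type u} [Field K] [Fintype K] [CharP K 2] {f : ℕ} (hf : 1 ≤ f)
    (hK : Fintype.card K = 2 ^ (3 * f)) : OutExp ↥(Lie.twistedD4 K (2 ^ f)) (3 * f) := by
  have : Fact (Nat.Prime 2) := ⟨Nat.prime_two⟩
  exact outExp_of_card (S2129.result 2 f hK hf)

end exps

/-! ### the ranks -/

section ranks

open CoxeterSystem Cfsg.Agent.ChevalleyStructure.CoxeterGeom Cfsg.Agent.Tits.Roots Cfsg.Agent.Tits.Core
  Cfsg.Agent.Nodes.Reps Cfsg.Agent.Nodes.BNOf Cfsg.Agent.Nodes.Bruhat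

theorem rk_field {F : Type*} [Field F] [Finite F] [CharP F 2] {d : ℕ} (hd : 2 ^ d ≤ Nat.card F) :
    Rk d (Multiplicative F) := by
  refine rk_of_elem (fun x y => mul_comm x y) (fun x => ?_) (by rwa [Nat.card_congr Multiplicative.toAdd])
  apply Multiplicative.toAdd.injective
  exact CharTwo.add_self_eq_zero _

theorem rkS_psl2 {F : Type u} [Field F] [Fintype F] [CharP F 2] {f : ℕ} (hf : 1 ≤ f) (hF : Fintype.card F = 2 ^ f) :
    RkS f (Matrix.ProjectiveSpecialLinearGroup (Fin 2) F) := by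
  have : Finite (Matrix.ProjectiveSpecialLinearGroup (Fin 2) F) := Quotient.finite _
  refine rkS_of_hom (U := Multiplicative F) Classification.PSLTwoEvenSylow.uniP
    Classification.PSLTwoEvenSylow.uniP_injective (n := f) ?_ ?_
    (rk_field (by rw [Nat.card_eq_fintype_card, hF]))
  · rw [← hF, ← Nat.card_eq_fintype_card]
    exact Nat.card_congr Multiplicative.toAdd
  · rw [Classification.PSLTwoEvenSylow.card_psl, hF, pow_succ]
    intro hd
    have h1 := Nat.dvd_of_mul_dvd_mul_left (by positivity) hd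
    have h2 : 2 ∣ (2 ^ f) ^ 2 := by
      rw [← pow_mul]; exact dvd_pow_self 2 (by omega)
    have h3 : 1 ≤ (2 ^ f) ^ 2 := Nat.one_le_iff_ne_zero.mpr (by positivity)
    omega

open Cfsg.Agent.LieRecognition in
theorem rkS_psu3 {F : Type u} [Field F] [Fintype F] [CharP F 2] {f : ℕ} (hf : 1 ≤ f)
    (hF : Fintype.card F = (2 ^ f) ^ 2) : RkS (2 * f) (PSU 3 F (2 ^ f)) := by
  have hcF : Nat.card F = (2 ^ f) ^ 2 := by rw [Nat.card_eq_fintype_card, hF]
  obtain ⟨hch, σ, hσ, hs, -, h3⟩ := PSUThreeSylow.exists_heis_equiv F hf hcF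
  have hq1 : 1 < 2 ^ f := Nat.one_lt_two_pow (by omega)
  intro Q
  obtain ⟨e⟩ := h3 Q
  refine rk_congr e.symm ?_
  let φ : HermHeis.Heis σ →* Multiplicative F := MonoidHom.mk' (fun x => Multiplicative.ofAdd x.a) (fun x y => rfl)
  refine rk_of_surj φ (fun y => ?_) (rk_field (by rw [hcF, ← pow_mul, mul_comm]))
  obtain ⟨x, hx⟩ := HermHeis.exists_heis_a (σ := σ) hq1 hs hcF (Multiplicative.toAdd y)
  exact ⟨x, by show Multiplicative.ofAdd x.a = y; rw [hx]; rfl⟩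

theorem rkS_G2 (F : Type u) [Field F] [Fintype F] [CharP F 2] {f : ℕ} (hF : 2 ^ f ≤ Fintype.card F) :
    RkS (f + 1) ↥(Lie.chevG2.group F) := by
  have : Fact (Nat.Prime 2) := ⟨Nat.prime_two⟩
  have : Finite CoxeterMatrix.G₂.Group := Nodes.RGDChev.finite_W H619.Gow.isTypeG2 CoxeterMatrix.G₂.toCoxeterSystem
  have R := Cfsg.Agent.Nodes.RGDChev.rgd (K := F) H619.Gow.isTypeG2 CoxeterMatrix.G₂.toCoxeterSystem 2
  have hG : GG CoxeterMatrix.G₂.toCoxeterSystem H619.Gow.isTypeG2.isCartan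
      ((Lie.chevG2.diagonalSubgroup F).subgroupOf (Lie.chevG2.group F))
      (fun x => (Nodes.RGDChev.XV Lie.chevG2 2 F x).subgroupOf (Lie.chevG2.group F)) = ⊤ :=
    Cfsg.Agent.KFacts.RgdFilt.GG_eq_top (Cfsg.Agent.Nodes.RGDChev.G1_eq_top H619.Gow.isTypeG2 _)
  have N0 := H619.Gow.nd_chev (K := F) H619.Gow.isTypeG2 CoxeterMatrix.G₂.toCoxeterSystem 0
  have h0 := rk_of_nd N0 (m := f) (by rwa [Nat.card_eq_fintype_card])
  exact rkS_of_subgroup R.isPGroup_Upos (index_U' R hG) (rk_two R (i := 0) (j := 1) (by decide) h0 (rk_X R 1))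

open Cfsg.Agent.H619.Gow in
open Cfsg.Agent.Nodes.RGDFoldSL (Fx mem_Fx) in
open Cfsg.Agent.ChevalleyStructure in
theorem rkS_tD4 (K : Type u) [Field K] [Fintype K] [CharP K 2] {q : ℕ} (hq : IsPrimePow q)
    (hK : Fintype.card K = q ^ 3) {d : ℕ} (hd : 2 ^ d ≤ q ^ 3) : RkS d ↥(Lie.twistedD4 K q) := by
  have : Fact (Nat.Prime 2) := ⟨Nat.prime_two⟩
  obtain ⟨φ, hφ⟩ := D4Fixed.exists_frob hq hK
  have hle := D4Fixed.twisted_le_fix hK hφ
  have h3 := fun t => mem_Fx3 (φ := φ) hK hφ t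
  have : Finite CoxeterMatrix.G₂.Group := Nodes.RGDChev.finite_W isTypeG2 CoxeterMatrix.G₂.toCoxeterSystem
  have R := Nodes.RGDTwD4.rgd (K := K) CoxeterMatrix.G₂.toCoxeterSystem hK hφ 2
  have hG : GG CoxeterMatrix.G₂.toCoxeterSystem Nodes.RGDTwD4.isCartan (Nodes.RGDTwD4.T K q)
      (Nodes.RGDTwD4.X φ q) = ⊤ :=
    Cfsg.Agent.KFacts.RgdFilt.GG_eq_top (Nodes.RGDTwD4.G1_eq_top CoxeterMatrix.G₂.toCoxeterSystem hK hφ)
  have N1 := nd_tw hφ hle CoxeterMatrix.G₂.toCoxeterSystem 1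
  have c1 : CharP (Fx φ (ln 1)) 2 := (RingHom.charP_iff _ (Fx φ (ln 1)).subtype.injective 2).2 inferInstance
  have f1 : Finite (Fx φ (ln 1)) := inferInstance
  have hcard : Nat.card (Fx φ (ln 1)) = q ^ 3 := by
    rw [← hK, ← Nat.card_eq_fintype_card]
    exact Nat.card_congr ((Equiv.subtypeUnivEquiv fun x => mem_Fx.2 (h3 x)))
  have h1 := rk_of_nd N1 (m := d) (by rwa [hcard])
  exact rkS_of_subgroup R.isPGroup_Upos (index_U' R hG) (rk_node R h1)

open Cfsg.Agent.LieRecognition.BNCox (cA) in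
open Cfsg.Agent.TitsThree.KSideA (tv tv_of_ne tv_add tv_zero) in
theorem rkS_psl3 {F : Type u} [Field F] [Finite F] [CharP F 2] {f : ℕ} (hF : 2 ^ f ≤ Nat.card F) :
    RkS (f + 1) (Matrix.ProjectiveSpecialLinearGroup (Fin 3) F) := by
  have : Fact (Nat.Prime 2) := ⟨Nat.prime_two⟩
  have hfin : Finite (cA 2).Group := Nodes.RootsA.finite_W (cA 2).toCoxeterSystem (Nodes.RootsA.isCartan 2)
  have hfin2 : Finite (Matrix.ProjectiveSpecialLinearGroup (Fin 3) F) := Quotient.finite _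
  have R := Nodes.RGDTypeA.rgd_psl (n := 2) (F := F) (p := 2) (cA 2).toCoxeterSystem (Nodes.RootsA.isCartan 2)
  have hG := H807.CubePar.GG_eq_top (T := (Nodes.RGDTypeA.T (Fin 3) F).map (Nodes.RGDTypeA.pr 2 F))
    (Nodes.RGDTypeA.G1_psl_eq_top (n := 2) (F := F) (cA 2).toCoxeterSystem (Nodes.RootsA.isCartan 2))
  have hne : (0 : Fin 2).castSucc ≠ (0 : Fin 2).succ := by decide
  have hmem : ∀ g, g ∈ (Nodes.RGDTypeA.X (n := 2) F (sr 0)).map (Nodes.RGDTypeA.pr 2 F) ↔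
      ∃ t, Nodes.RGDTypeA.pr 2 F (tv (0 : Fin 2).castSucc (0 : Fin 2).succ t) = g := by
    intro g
    rw [Nodes.RGDTypeA.X_sr]
    constructor
    · rintro ⟨_, ⟨t, rfl⟩, rfl⟩
      exact ⟨t, rfl⟩
    · rintro ⟨t, rfl⟩
      exact ⟨_, Nodes.RGDTypeA.tv_mem_XX _ _ _, rfl⟩
  have hinj : ∀ t : F, Nodes.RGDTypeA.pr 2 F (tv (0 : Fin 2).castSucc (0 : Fin 2).succ t) = 1 → t = 0 := by
    intro t h
    have h1 : tv (0 : Fin 2).castSucc (0 : Fin 2).succ t ∈
        Subgroup.center (Matrix.SpecialLinearGroup (Fin (2 + 1)) F) := (QuotientGroup.eq_one_iff _).1 h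
    rw [Matrix.SpecialLinearGroup.mem_center_iff] at h1
    obtain ⟨r, -, hr⟩ := h1
    have hr' : Matrix.scalar (Fin (2 + 1)) r = 1 + Matrix.single (0 : Fin 2).castSucc (0 : Fin 2).succ t :=
      hr.trans (Nodes.RGDTypeA.tv_val hne t)
    have h2 := congrArg (fun g : Matrix (Fin (2 + 1)) (Fin (2 + 1)) F => g (0 : Fin 2).castSucc (0 : Fin 2).succ) hr'
    rw [Matrix.scalar_apply] at h2
    simp only [Matrix.diagonal_apply_ne _ hne, Matrix.add_apply, Matrix.one_apply_ne hne, zero_add,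
      Matrix.single_apply_same] at h2
    exact h2.symm
  have h0 : Rk f ((Nodes.RGDTypeA.X (n := 2) F (sr 0)).map (Nodes.RGDTypeA.pr 2 F)) := by
    refine rk_of_par (fun t => Nodes.RGDTypeA.pr 2 F (tv (0 : Fin 2).castSucc (0 : Fin 2).succ t))
      (fun a b => by rw [tv_add, map_mul]) (fun x hx => (hmem x).1 hx) (le_trans hF ?_)
    refine Nat.card_le_card_of_injective (fun t => (⟨_, (hmem _).2 ⟨t, rfl⟩⟩ :
      (Nodes.RGDTypeA.X (n := 2) F (sr 0)).map (Nodes.RGDTypeA.pr 2 F))) fun a b e => ?_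
    have e1 := congrArg Subtype.val e
    change Nodes.RGDTypeA.pr 2 F (tv _ _ a) = Nodes.RGDTypeA.pr 2 F (tv _ _ b) at e1
    have e2 := hinj (a - b) (by
      have e3 : tv (0 : Fin 2).castSucc (0 : Fin 2).succ (a - b + b) =
        tv (0 : Fin 2).castSucc (0 : Fin 2).succ (a - b) * tv (0 : Fin 2).castSucc (0 : Fin 2).succ b := tv_add _ _ _ _
      rw [sub_add_cancel] at e3
      have e4 := congrArg (Nodes.RGDTypeA.pr 2 F) e3
      rw [map_mul, e1] at e4
      exact right_eq_mul.1 e4)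
    exact sub_eq_zero.1 e2
  exact rkS_of_subgroup R.isPGroup_Upos (index_U' R hG) (rk_two R (i := 0) (j := 1) (by decide) h0 (rk_X R 1))

end ranks

section witt

open Cfsg.Agent.ChevalleyStructure.CoxeterGeom Cfsg.Agent.Tits.Roots
open Cfsg.Agent.Nodes Cfsg.Agent.Nodes.Comb Cfsg.Agent.Nodes.WittAll Cfsg.Agent.Nodes.WittU Cfsg.Agent.Nodes.WittInst
  Cfsg.Agent.Nodes.WittRoot Cfsg.Agent.Nodes.TypeC Cfsg.Agent.Nodes.WittRGD
  Cfsg.Agent.TitsThree Cfsg.Agent.TitsThree.Siegel Cfsg.Agent.TitsThree.SiegelGen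
  Cfsg.Agent.TitsThree.WittFrame Cfsg.Agent.TitsThree.WBridge Cfsg.Agent.TitsThree.WittWeyl
  Cfsg.Agent.TitsThree.FrameCN Cfsg.Agent.LieClassical.HermBasic Cfsg.Agent.TitsThree.KSideU

theorem rkS_witt {F : Type*} [Field F] [Finite F] [CharP F 2] {V : Type*} [AddCommGroup V] [Module F V] [Finite V]
    {H : HForm F V} {Fr : Frame H (Fin 2)} {K : Type*} [Group K] [Finite K] (M : Model Fr K)
    (hA : AmbT Fr 2 M.I) {p0 : Fr.Adm} (hp0 : p0.c ≠ 0) {f : ℕ} (h4 : 2 ^ f ≤ Nat.card F) : RkS (f + 1) K := by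
  have : Fact (Nat.Prime 2) := ⟨Nat.prime_two⟩
  have hfin : Finite (CoxeterMatrix.B 2).Group := finite_W (CoxeterMatrix.B 2).toCoxeterSystem
  have R := rgdC_model M hA hp0 (CoxeterMatrix.B 2).toCoxeterSystem
  have hGG := H807.CubePar.GG_eq_top (T := WittModel.T M)
    (WittModel.G1_eq_top M (by norm_num) (CoxeterMatrix.B 2).toCoxeterSystem)
  have hi : ((0 : Fin 2) : ℕ) + 1 < 2 := by norm_num
  have hne' : (((0 : Fin 2), true) : Fin 2 × Bool).1 ≠ (nx (0 : Fin 2)).1 := by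
    unfold nx; rw [dif_pos hi]; simp
  have h0 : Rk f (WittModel.X M (sr 0)) := by
    refine rk_of_par (fun t => M.φ ⟨Fr.X (0, true) (nx 0) t, hA.X_mem _ _ _⟩) (fun a b => ?_) ?_
      (by rw [H807.CubePar.card_short M hA hp0 hi]; exact h4)
    · rw [← map_mul]
      congr 1
      apply Subtype.ext
      change Fr.X (0, true) (nx 0) (a + b) = Fr.X (0, true) (nx 0) a * Fr.X (0, true) (nx 0) b
      exact Fr.X_add _ _ _ _
    · rintro _ ⟨⟨g, hgI⟩, hg, rfl⟩
      have h1 : g ∈ rg Fr (sr 0) := hg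
      rw [rg_sr, PG_ne Fr hne'] at h1
      obtain ⟨a, rfl⟩ := h1
      exact ⟨a, rfl⟩
  exact rkS_of_subgroup R.isPGroup_Upos (index_U' R hGG) (rk_two R (i := 0) (j := 1) (by decide) h0 (rk_X R 1))

theorem rkS_psp4 {F : Type*} [Field F] [Finite F] [CharP F 2] {f : ℕ} (h4 : 2 ^ f ≤ Nat.card F) :
    RkS (f + 1) (PSp 2 F) := by
  have : Fact (Nat.Prime 2) := ⟨Nat.prime_two⟩
  have : Finite (PSp 2 F) := inferInstance
  exact rkS_witt (KInstSp.model 2 F) (AmbT.of_amb amb_Sp 2) (p0 := SpIdent.adm 1) one_ne_zero h4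

theorem rkS_psu {F : Type*} [Field F] [Fintype F] [CharP F 2] {q N : ℕ} (hF : Fintype.card F = q ^ 2)
    (hN : N = 4 ∨ N = 5) {f : ℕ} (h4 : 2 ^ f ≤ Nat.card F) : RkS (f + 1) (PSU N F q) := by
  have : Fact (Nat.Prime 2) := ⟨Nat.prime_two⟩
  have : Finite (PSU N F q) := inferInstance
  obtain ⟨W, -⟩ := exists_wframe hF (m := 2) (N := N) (by omega)
  obtain ⟨p0, hp0, -⟩ := exists_adm hF W
  exact rkS_witt (KInstU.model hF (by omega) W) (AmbT.of_amb (amb_U hF W) 2) hp0 h4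

end witt

/-! ### the final theorem -/

section final

variable {S : Type u} [Group S]

/-- the special outer 2-automorphisms -/
def Special (τ : MulAut S) : Prop :=
  (∃ (F : Type) (_ : Field F) (_ : Fintype F) (f : ℕ), 2 ≤ f ∧ Fintype.card F = 2 ^ f ∧
    Nonempty (S ≃* Matrix.ProjectiveSpecialLinearGroup (Fin 2) F) ∧ Spec τ f) ∨
  (∃ (F : Type) (_ : Field F) (_ : Fintype F) (f : ℕ), 2 ≤ f ∧ Fintype.card F = (2 ^ f) ^ 2 ∧
    Nonempty (S ≃* PSU 3 F (2 ^ f)) ∧ Spec τ (2 * f)) ∨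
  (∃ (F : Type) (_ : Field F) (_ : Fintype F) (f : ℕ), 2 ≤ f ∧ Fintype.card F = 2 ^ f ∧
    Nonempty (S ≃* PSp 2 F) ∧ Spec τ (2 * f)) ∨
  ∃ (F : Type) (_ : Field F) (_ : Fintype F), Fintype.card F = 2 ∧
    Nonempty (S ≃* Matrix.ProjectiveSpecialLinearGroup (Fin 3) F)

theorem exists_pow_two (F : Type*) [Field F] [Fintype F] [CharP F 2] : ∃ f : ℕ, 1 ≤ f ∧ Fintype.card F = 2 ^ f := by
  obtain ⟨n, -, hn⟩ := FiniteField.card F 2
  exact ⟨n, n.pos, hn⟩

theorem exists_pow_two_of_pow {F : Type*} [Field F] [Fintype F] [CharP F 2] {q c : ℕ} (hc : c ≠ 0)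
    (hF : Fintype.card F = q ^ c) : ∃ f : ℕ, 1 ≤ f ∧ q = 2 ^ f := by
  obtain ⟨k, -, hk⟩ := exists_pow_two F
  have hq2 : q ∣ 2 ^ k := by rw [← hk, hF]; exact dvd_pow_self q hc
  obtain ⟨f, -, rfl⟩ := (Nat.dvd_prime_pow Nat.prime_two).1 hq2
  refine ⟨f, ?_, rfl⟩
  by_contra h0
  have h1 : f = 0 := by omega
  have h2 := Fintype.one_lt_card (α := F)
  rw [hF, h1, pow_zero, one_pow] at h2
  exact absurd h2 (by norm_num)

variable [Finite S]

theorem not_spec_three {τ : MulAut S} {f : ℕ} : ¬ Spec τ (3 * f) := by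
  rintro ⟨⟨b, hb⟩, -⟩
  have h1 : 3 ∣ 2 ^ b := ⟨f, hb.symm⟩
  have h2 := Nat.prime_three.dvd_of_dvd_pow h1
  exact absurd h2 (by norm_num)

theorem ext_of_dvd [IsSimpleGroup S] {l : ℕ} (hl : 0 < l) {M : CoxeterMatrix (Fin l)} (hS : HasRGDT 2 M S)
    {d : ℕ} (hd : RkS d S) (hN : ∀ g : MulAut S, (∃ m : ℕ, g ^ 2 ^ m = 1) →
      (∀ (k : ℤ) (s : S), g ^ k = MulAut.conj s → g ^ k = 1) → orderOf g < d) {τ : MulAut S} (hτ : TwoPow τ)
    (hn : ¬ IsInn τ) : D3 (AutExt τ) := by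
  have : Fact (Nat.Prime 2) := ⟨Nat.prime_two⟩
  obtain ⟨A, h, T, n, X, hW, R, hX⟩ := hS
  have : Finite M.Group := hW
  have : Nonempty (Fin l) := ⟨⟨0, hl⟩⟩
  have hG := H967.K4.gg_of_g1 (T := T) hX
  exact D3_of_rk' R hG (center_eq_bot R) (hd (R.isPGroup_Upos.toSylow (index_U' R hG))) hτ hn
    (fun g _ h1 h2 => hN g h1 h2)

theorem lt_congr {S' : Type v} [Group S'] (e : S ≃* S') {d : ℕ} (hN : ∀ g : MulAut S', (∃ m : ℕ, g ^ 2 ^ m = 1) →
      (∀ (k : ℤ) (s : S'), g ^ k = MulAut.conj s → g ^ k = 1) → orderOf g < d) (g : MulAut S)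
      (hm : ∃ m : ℕ, g ^ 2 ^ m = 1) (hdisj : ∀ (k : ℤ) (s : S), g ^ k = MulAut.conj s → g ^ k = 1) :
      orderOf g < d := by
  obtain ⟨m, hm⟩ := hm
  have h1 : orderOf (cg e g) = orderOf g := MulEquiv.orderOf_eq (MulAut.congr e) g
  rw [← h1]
  refine hN (cg e g) ⟨m, by rw [← cg_pow, hm]; exact map_one (MulAut.congr e)⟩ ?_
  intro k s hk
  have h2 : g ^ k = MulAut.conj (e.symm s) := by
    apply (MulAut.congr e).injective
    change cg e (g ^ k) = cg e (MulAut.conj (e.symm s))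
    rw [cg_zpow, hk, cg_conj, MulEquiv.apply_symm_apply]
  rw [← cg_zpow, hdisj k _ h2]
  exact map_one (MulAut.congr e)

/-- **`D3 (AutExt τ)` in characteristic two.** -/
theorem d3_ext_two [IsSimpleGroup S] (hS : IsLieTypeChar 2 S) {τ : MulAut S} (hτ : TwoPow τ) (hn : ¬ IsInn τ) :
    D3 (AutExt τ) ∨ Special τ := by
  have : Fact (Nat.Prime 2) := ⟨Nat.prime_two⟩
  rcases hS with h | h | h | h | h | h | h | h | ⟨-, h⟩ | ⟨-, h⟩ | ⟨h, -⟩
  · obtain ⟨F, _, _, _, n, hn2, hn4, ⟨e⟩⟩ := h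
    obtain ⟨f, hf, hF⟩ := exists_pow_two F
    rcases Nat.lt_or_ge n 4 with h4 | h4
    · obtain rfl | rfl : n = 2 ∨ n = 3 := by omega
      · -- `PSL₂`
        have hf2 : 2 ≤ f := by
          by_contra h0
          have h1 : f = 1 := by omega
          have h5 := hn4 rfl
          rw [hF, h1] at h5
          omega
        rcases alt (by norm_num) ((typ_PSL 1).of_equiv e.symm) (rkS_congr e (rkS_psl2 hf hF))
          (outExp_congr e (outExp_psl2 hf2 hF)) (by omega) (by omega) hτ hn with h | ⟨-, h⟩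
        · exact Or.inl h
        · exact Or.inr (Or.inl ⟨F, inferInstance, inferInstance, f, hf2, hF, ⟨e⟩, h⟩)
      · -- `PSL₃`
        rcases Nat.lt_or_ge f 2 with h1 | h1
        · have h2 : f = 1 := by omega
          rw [h2, pow_one] at hF
          exact Or.inr (Or.inr (Or.inr (Or.inr ⟨F, inferInstance, inferInstance, hF, ⟨e⟩⟩)))
        · refine Or.inl (ext_of_dvd (by norm_num) ((typ_PSL 2).of_equiv e.symm)
            (rkS_congr e (rkS_psl3 (f := f) (by rw [Nat.card_eq_fintype_card, hF]))) ?_ hτ hn)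
          exact lt_congr e fun g h2 h3 => outExp_psl3' h1 hF h2 h3
    · obtain ⟨m, rfl⟩ : ∃ m, n = m + 1 := ⟨n - 1, by omega⟩
      have hl := leaf_cA (n := m) (by omega)
      exact Or.inl (ext_of_leaf ((typ_PSL m).of_equiv e.symm) hl.1 hl.2 hτ hn)
  · obtain ⟨F, _, _, _, m, hm, h3, ⟨e⟩⟩ := h
    obtain ⟨f, hf, hF⟩ := exists_pow_two F
    rcases Nat.lt_or_ge m 3 with h4 | h4
    · obtain rfl : m = 2 := by omega
      have hf2 : 2 ≤ f := by
        by_contra h0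
        have h1 : f = 1 := by omega
        have h5 := h3 rfl
        rw [hF, h1] at h5
        omega
      rcases alt (by norm_num) ((typ_PSp (m := 2) (by norm_num)).of_equiv e.symm)
        (rkS_congr e (rkS_psp4 (f := f) (by rw [Nat.card_eq_fintype_card, hF])))
        (outExp_congr e (outExp_psp4 hf hF)) (by omega) (by omega) hτ hn with h | ⟨-, h⟩
      · exact Or.inl h
      · exact Or.inr (Or.inr (Or.inr (Or.inl ⟨F, inferInstance, inferInstance, f, hf2, hF, ⟨e⟩, h⟩)))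
    · have hl := leaf_B (n := m) h4
      exact Or.inl (ext_of_leaf ((typ_PSp (m := m) (by omega)).of_equiv e.symm) hl.1 hl.2 hτ hn)
  · obtain ⟨F, _, _, _, n, q, hF, hn3, h32, ⟨e⟩⟩ := h
    obtain ⟨f, hf, rfl⟩ := exists_pow_two_of_pow two_ne_zero hF
    have hcF : 2 ^ (2 * f) ≤ Nat.card F := by
      rw [Nat.card_eq_fintype_card, hF, ← pow_mul, mul_comm]
    rcases Nat.lt_or_ge n 6 with h8 | h8
    · obtain ⟨m, hm, hR⟩ := typ_PSU (p := 2) hF hn3
      obtain rfl | h45 : n = 3 ∨ (n = 4 ∨ n = 5) := by omega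
      · have hf2 : 2 ≤ f := by
          by_contra h0
          have h1 : f = 1 := by omega
          exact h32 ⟨rfl, by rw [h1]; norm_num⟩
        rcases alt (l := m) (by omega) (hR.of_equiv e.symm) (rkS_congr e (rkS_psu3 hf hF))
          (outExp_congr e (outExp_psu hf hF le_rfl h32)) (by omega) (by omega) hτ hn with h | ⟨-, h⟩
        · exact Or.inl h
        · exact Or.inr (Or.inr (Or.inl ⟨F, inferInstance, inferInstance, f, hf2, hF, ⟨e⟩, h⟩))
      · rcases alt (l := m) (by omega) (hR.of_equiv e.symm) (rkS_congr e (rkS_psu hF h45 hcF))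
          (outExp_congr e (outExp_psu hf hF hn3 h32)) (by omega) (by omega) hτ hn with h | ⟨h, -⟩
        · exact Or.inl h
        · omega
    · obtain ⟨m, hm, hR⟩ := typ_PSU (p := 2) hF hn3
      have hl := leaf_B (n := m) (by omega)
      exact Or.inl (ext_of_leaf (hR.of_equiv e.symm) hl.1 hl.2 hτ hn)
  · obtain ⟨F, _, _, _, m, hm, ho, ⟨e⟩⟩ := h
    exfalso
    have h1 : (2 : ℕ) ∣ Fintype.card F := by
      obtain ⟨k, hk, hk2⟩ := FiniteField.card F 2
      rw [hk2]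
      exact dvd_pow_self _ k.ne_zero
    exact (Nat.not_even_iff_odd.2 ho) (even_iff_two_dvd.2 h1)
  · obtain ⟨F, _, _, _, m, hm, ⟨e⟩⟩ := h
    obtain ⟨n, rfl⟩ : ∃ n, m = n + 3 := ⟨m - 3, by omega⟩
    have hl := leaf_D n
    exact Or.inl (ext_of_leaf ((typ_PO_plus n).of_equiv e.symm) hl.1 hl.2 hτ hn)
  · obtain ⟨F, _, _, _, m, a, b, hm, hab, ⟨e⟩⟩ := h
    have hl := leaf_B (n := m - 1) (by omega)
    exact Or.inl (ext_of_leaf ((typ_PO_minus hab (by omega)).of_equiv e.symm) hl.1 hl.2 hτ hn)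
  · obtain ⟨F, _, _, _, h⟩ := h
    obtain ⟨f, hf, hF⟩ := exists_pow_two F
    rcases h with ⟨h3, ⟨e⟩⟩ | ⟨⟨e⟩⟩ | ⟨⟨e⟩⟩ | ⟨⟨e⟩⟩ | ⟨⟨e⟩⟩
    · have hf2 : 2 ≤ f := by
        by_contra h0
        have h1 : f = 1 := by omega
        rw [hF, h1] at h3
        omega
      rcases alt (M := CoxeterMatrix.G₂) (by norm_num)
        ((typ_group (by simp [Nodes.RGDChev.IsType, Nodes.RGDChev.typeList]) F 2).of_equiv e.symm)
        (rkS_congr e (rkS_G2 F (f := f) hF.ge)) (outExp_congr e (outExp_G2 hf2 hF)) (by omega) (by omega) hτ hn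
        with h | ⟨h, -⟩
      · exact Or.inl h
      · omega
    · exact Or.inl (ext_of_leaf (M := CoxeterMatrix.F₄)
        ((typ_group (by simp [Nodes.RGDChev.IsType, Nodes.RGDChev.typeList]) F 2).of_equiv e.symm)
        leaf_F4.1 leaf_F4.2 hτ hn)
    · exact Or.inl (ext_of_leaf (M := CoxeterMatrix.E₆)
        ((typ_group (by simp [Nodes.RGDChev.IsType, Nodes.RGDChev.typeList]) F 2).of_equiv e.symm)
        leaf_E6.1 leaf_E6.2 hτ hn)
    · exact Or.inl (ext_of_leaf (M := CoxeterMatrix.E₇)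
        ((typ_group (by simp [Nodes.RGDChev.IsType, Nodes.RGDChev.typeList]) F 2).of_equiv e.symm)
        leaf_E7.1 leaf_E7.2 hτ hn)
    · exact Or.inl (ext_of_leaf (M := CoxeterMatrix.E₈)
        ((typ_group (by simp [Nodes.RGDChev.IsType, Nodes.RGDChev.typeList]) F 2).of_equiv e.symm)
        leaf_E8.1 leaf_E8.2 hτ hn)
  · obtain ⟨K, _, _, _, q, hq, ⟨hK, ⟨e⟩⟩ | ⟨hK, ⟨e⟩⟩⟩ := h
    · exact Or.inl (ext_of_leaf ((typ_twE6 hq hK 2).of_equiv e.symm) leaf_F4.1 leaf_F4.2 hτ hn)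
    · obtain ⟨f, hf, rfl⟩ := exists_pow_two_of_pow three_ne_zero hK
      have hK' : Fintype.card K = 2 ^ (3 * f) := by rw [hK, ← pow_mul, mul_comm]
      rcases alt (by norm_num) ((typ_twD4 hq hK 2).of_equiv e.symm)
        (rkS_congr e (rkS_tD4 K hq hK (d := 3 * f) (by rw [← pow_mul, mul_comm])))
        (outExp_congr e (outExp_tD4 hf hK')) (by omega) (by omega) hτ hn with h | ⟨-, h⟩
      · exact Or.inl h
      · exact absurd h not_spec_three
  · obtain ⟨F, _, _, m, hm, hF, ⟨e⟩⟩ := h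
    have hfin : Finite (Cfsg.Lie.Sz F (2 ^ (m + 1))) := inferInstance
    exact absurd (isInn_of_odd' e (by rw [S2126.result hm hF]; exact ⟨m, rfl⟩) hτ) hn
  · obtain ⟨K, _, _, m, hm, hK, ⟨e⟩⟩ := h
    have hfin : Finite ↥(Lie.twistedF4 K (2 ^ m)) := Finite.of_equiv S e.toEquiv
    exact absurd (isInn_of_odd' e (by rw [S2128.result hm hK]; exact ⟨m, rfl⟩) hτ) hn
  · exact absurd h (by decide)

end final

end Cfsg.Agent.H151.K547
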