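import Cfsg.Agent.H42.K547.EvenDefs
import Cfsg.Agent.H118.K547.TSer
import Cfsg.Agent.H507.K4.SizeA
import Cfsg.Agent.H742.TwoC
import Cfsg.Agent.KFacts.Mult.TypeA
import Cfsg.Agent.ClassicalGeometry.AutPSL.Root
import Cfsg.Agent.S0249

/-!
# S4547, QE7: `PSL₃(q)`, `q` even, two elements of the torus (helper151)

* `dx x` : the element `diag (x, 1, x⁻¹)`;
* `not_conj` : `dx x` and `dx y` are not conjugate in `PSL₃(F)` for `y ∉ {x, x⁻¹}`, `x, y ≠ 1`;
* `psl3_two` : `GInv3 β` if the images of `dx x` and `dx y` are fixed or inverted by `β`;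
* `psl3_generic` : the same for `β (dx x) = dx (φ x)`.
-/

set_option autoImplicit false
set_option linter.unusedSectionVars false

open Cfsg

namespace Cfsg.Agent.H151.K547.Psl3

open Matrix CoxeterSystem Cfsg.Agent.ChevalleyStructure.CoxeterGeom Cfsg.Agent.Tits.Roots Cfsg.Agent.Tits.Core
  Cfsg.Agent.Nodes.Reps Cfsg.Agent.Nodes.BNOf Cfsg.Agent.Nodes.Bruhat Cfsg.Agent.H821.K547 Cfsg.Agent.H307.QE
  Cfsg.Agent.H42.K547.Even Cfsg.Agent.Nodes.RGDTypeA
open Cfsg.Agent.LieRecognition.BNCox (cA)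
open Cfsg.Agent.H507.K4.SizeA (dg dg_mem dg_center)

section elts

variable {F : Type*} [Field F]

/-- `diag (x, 1, x⁻¹)` -/
noncomputable def dx (x : Fˣ) : SpecialLinearGroup (Fin (2 + 1)) F := dg (x, 1)

theorem dx_coe (x : Fˣ) : (dx x : Matrix (Fin 3) (Fin 3) F) = Matrix.diagonal ![(x : F), 1, (x : F)⁻¹] := by
  change Matrix.diagonal ![(x : F), ((1 : Fˣ) : F), ((x * 1)⁻¹ : Fˣ)] = _
  rw [mul_one, Units.val_one, Units.val_inv_eq_inv_val]

theorem dx_mem (x : Fˣ) : dx x ∈ T (Fin (2 + 1)) F := dg_mem _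

theorem pr_dx_ne_one {x : Fˣ} (hx : x ≠ 1) : pr 2 F (dx x) ≠ 1 := by
  intro h
  have h1 : dx x ∈ (pr 2 F).ker := h
  rw [ker_pr] at h1
  exact hx (dg_center h1).1

/-- the eigenvalues -/
theorem det_eq {x y : Fˣ} {g : SpecialLinearGroup (Fin (2 + 1)) F} {c : F}
    (h : (dx y : Matrix (Fin 3) (Fin 3) F) = c • ((g * dx x * g⁻¹ : SpecialLinearGroup (Fin (2 + 1)) F) :
      Matrix (Fin 3) (Fin 3) F)) (m : F) :
    (m - y) * (m - 1) * (m - (y : F)⁻¹) = (m - c * x) * (m - c) * (m - c * (x : F)⁻¹) := by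
  have h1 : ∀ a b e : F, (m • (1 : Matrix (Fin 3) (Fin 3) F) - Matrix.diagonal ![a, b, e]).det
      = (m - a) * (m - b) * (m - e) := by
    intro a b e
    rw [Matrix.smul_one_eq_diagonal, Matrix.diagonal_sub, Matrix.det_diagonal, Fin.prod_univ_three]
    rfl
  have h2 : (m • (1 : Matrix (Fin 3) (Fin 3) F) - (dx y : Matrix (Fin 3) (Fin 3) F)).det =
      (m • (1 : Matrix (Fin 3) (Fin 3) F) - c • (dx x : Matrix (Fin 3) (Fin 3) F)).det := by
    have h3 : m • (1 : Matrix (Fin 3) (Fin 3) F) - (dx y : Matrix (Fin 3) (Fin 3) F) =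
        (g : Matrix (Fin 3) (Fin 3) F) * (m • (1 : Matrix (Fin 3) (Fin 3) F) -
          c • (dx x : Matrix (Fin 3) (Fin 3) F)) * ((g⁻¹ : SpecialLinearGroup (Fin (2 + 1)) F) :
          Matrix (Fin 3) (Fin 3) F) := by
      have h4 : (g : Matrix (Fin 3) (Fin 3) F) * ((g⁻¹ : SpecialLinearGroup (Fin (2 + 1)) F) :
          Matrix (Fin 3) (Fin 3) F) = 1 := by
        rw [← Matrix.SpecialLinearGroup.coe_mul, mul_inv_cancel, Matrix.SpecialLinearGroup.coe_one]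
      rw [h, mul_sub, sub_mul, Matrix.mul_smul, Matrix.smul_mul, mul_one, h4, Matrix.mul_smul, Matrix.smul_mul,
        Matrix.SpecialLinearGroup.coe_mul, Matrix.SpecialLinearGroup.coe_mul]
    have h5 : (g : Matrix (Fin 3) (Fin 3) F).det = 1 := g.2
    have h6 : ((g⁻¹ : SpecialLinearGroup (Fin (2 + 1)) F) : Matrix (Fin 3) (Fin 3) F).det = 1 := g⁻¹.2
    rw [h3, Matrix.det_mul, Matrix.det_mul, h5, h6, one_mul, mul_one]
  have h7 : c • (Matrix.diagonal ![(x : F), 1, (x : F)⁻¹]) = Matrix.diagonal ![c * (x : F), c, c * (x : F)⁻¹] := by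
    rw [← Matrix.diagonal_smul]
    refine congrArg Matrix.diagonal (funext fun i => ?_)
    fin_cases i
    · rfl
    · exact mul_one c
    · rfl
  rw [dx_coe, dx_coe, h7, h1, h1] at h2
  exact h2

/-- **Not conjugate.** -/
theorem not_conj {x y : Fˣ} (hy1 : y ≠ 1) (hxy : y ≠ x) (hxy' : x * y ≠ 1)
    (z : ProjectiveSpecialLinearGroup (Fin (2 + 1)) F) : z * pr 2 F (dx x) * z⁻¹ ≠ pr 2 F (dx y) := by
  obtain ⟨g, rfl⟩ := pr_surjective z
  intro e
  rw [← map_inv, ← map_mul, ← map_mul] at e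
  obtain ⟨c, hc⟩ := Cfsg.Agent.ClassicalGeometry.AutPSL.Root.exists_smul_of_pr_eq e
  have key := det_eq hc
  have hx0 : (x : F) ≠ 0 := x.ne_zero
  have hy0 : (y : F) ≠ 0 := y.ne_zero
  have hy1' : (y : F) - 1 ≠ 0 := fun h => hy1 (Units.ext (sub_eq_zero.1 h))
  have hxy1 : (y : F) - x ≠ 0 := fun h => hxy (Units.ext (sub_eq_zero.1 h))
  have hxy2 : (y : F) - (x : F)⁻¹ ≠ 0 := by
    intro h
    apply hxy'
    apply Units.ext
    rw [Units.val_mul, sub_eq_zero.1 h, mul_inv_cancel₀ hx0, Units.val_one]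
  have hne : ((y : F) - x) * (y - (x : F)⁻¹) * (y - 1) ≠ 0 := mul_ne_zero (mul_ne_zero hxy1 hxy2) hy1'
  have h1 := key 1
  have h2 := key y
  have h3 := key 0
  rw [sub_self, mul_zero, zero_mul] at h1
  rw [sub_self, zero_mul, zero_mul] at h2
  have h4 : c ^ 3 = 1 := by
    have h5 : -((y : F) * (y : F)⁻¹) = -(c ^ 3 * (x * (x : F)⁻¹)) := by linear_combination h3
    rw [mul_inv_cancel₀ hx0, mul_inv_cancel₀ hy0, mul_one] at h5
    exact (neg_injective h5).symm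
  rcases mul_eq_zero.1 h1.symm with h5 | h5
  · rcases mul_eq_zero.1 h5 with h6 | h6
    · -- `c x = 1`
      have h7 : c * x = 1 := (sub_eq_zero.1 h6).symm
      have h8 : c = (x : F)⁻¹ := eq_inv_of_mul_eq_one_left h7
      have h9 : c * (x : F)⁻¹ = x := by
        rw [← h8]
        have : c * c * (c * x) = x * c ^ 3 := by ring
        rw [h7, mul_one, h4, mul_one] at this
        exact this
      rw [h7, h9, h8] at h2
      exact hne (by linear_combination -h2)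
    · -- `c = 1`
      have h7 : c = 1 := (sub_eq_zero.1 h6).symm
      rw [h7, one_mul, one_mul] at h2
      exact hne (by linear_combination -h2)
  · -- `c = x`
    have h7 : c * (x : F)⁻¹ = 1 := (sub_eq_zero.1 h5).symm
    have h8 : c = x := by
      have := eq_inv_of_mul_eq_one_left h7
      rwa [inv_inv] at this
    have h9 : c * x = (x : F)⁻¹ := by
      refine eq_inv_of_mul_eq_one_left ?_
      rw [← h8, ← h4]
      ring
    rw [h7, h9, h8] at h2
    exact hne (by linear_combination -h2)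

/-- the element of `N` inverting `dx x` -/
noncomputable def nz (F : Type*) [Field F] : SpecialLinearGroup (Fin (2 + 1)) F := ns 2 F 0 * ns 2 F 1 * ns 2 F 0

theorem mono_nz : Mono (Equiv.swap (0 : Fin 3) 2) (nz F) := by
  have h1 := ((mono_ns (n := 2) (F := F) 0).mul (mono_ns 1)).mul (mono_ns 0)
  have h2 : Equiv.swap (Fin.castSucc (0 : Fin 2)) (Fin.succ 0) * Equiv.swap (Fin.castSucc (1 : Fin 2)) (Fin.succ 1) *
      Equiv.swap (Fin.castSucc (0 : Fin 2)) (Fin.succ 0) = Equiv.swap (0 : Fin 3) 2 := by decide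
  rw [h2] at h1
  exact h1

theorem nz_conj (x : Fˣ) : nz F * dx x * (nz F)⁻¹ = dx x⁻¹ := by
  rw [mul_inv_eq_iff_eq_mul]
  apply Subtype.ext
  rw [Matrix.SpecialLinearGroup.coe_mul, Matrix.SpecialLinearGroup.coe_mul, dx_coe, dx_coe]
  ext a b
  rw [Matrix.mul_diagonal, Matrix.diagonal_mul]
  by_cases h : (nz F : Matrix (Fin 3) (Fin 3) F) a b = 0
  · rw [h, zero_mul, mul_zero]
  · have h1 := mono_nz a b h
    rw [mul_comm]
    congr 1
    rw [h1]
    fin_cases b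
    · change (x : F) = ((x⁻¹ : Fˣ) : F)⁻¹
      rw [Units.val_inv_eq_inv_val, inv_inv]
    · rfl
    · change (x : F)⁻¹ = ((x⁻¹ : Fˣ) : F)
      rw [Units.val_inv_eq_inv_val]

end elts

section main

variable {F : Type} [Field F] [Fintype F] [CharP F 2]

theorem finite_psl3 : Finite (ProjectiveSpecialLinearGroup (Fin (2 + 1)) F) :=
  have : DecidableEq F := Classical.decEq F
  Quotient.finite _

theorem twoC_psl3 : H601.OddDeg.TwoC (ProjectiveSpecialLinearGroup (Fin (2 + 1)) F) := by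
  have h1 : Finite (ProjectiveSpecialLinearGroup (Fin (2 + 1)) F) := finite_psl3
  have h2 : IsSimpleGroup (ProjectiveSpecialLinearGroup (Fin (2 + 1)) F) := Cfsg.Agent.S0249.result 3 le_rfl
  exact H742.TwoC.twoC_charTwo (Or.inl ⟨F, inferInstance, inferInstance, inferInstance, 3, by norm_num,
    fun h => absurd h (by norm_num), ⟨MulEquiv.refl _⟩⟩)

theorem T_psl_comm : ∀ a ∈ (T (Fin (2 + 1)) F).map (pr 2 F), ∀ b ∈ (T (Fin (2 + 1)) F).map (pr 2 F),
    a * b = b * a := by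
  rintro _ ⟨s, hs, rfl⟩ _ ⟨t, ht, rfl⟩
  rw [← map_mul, ← map_mul, KFacts.Mult.TypeA.T_comm hs ht]

theorem nz_mem : pr 2 F (nz F) ∈ NN (cA 2).toCoxeterSystem (rA 2 F).nsys := by
  have h1 : ∀ i : Fin 2, pr 2 F (ns 2 F i) ∈ NN (cA 2).toCoxeterSystem (rA 2 F).nsys := fun i =>
    ⟨(cA 2).toCoxeterSystem.simple i, rp_simple (cA 2).toCoxeterSystem (rA 2 F).nsys i⟩
  rw [nz, map_mul, map_mul]
  exact mul_mem (mul_mem (h1 0) (h1 1)) (h1 0)

/-- **two elements of the torus** -/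
theorem psl3_two {β : MulAut (ProjectiveSpecialLinearGroup (Fin (2 + 1)) F)}
    {σ : Equiv.Perm (Fin 2)} (hN : Nrm (rA 2 F) β σ) {x y : Fˣ} (hx1 : x ≠ 1) (hy1 : y ≠ 1) (hxy : y ≠ x)
    (hxy' : x * y ≠ 1) (hx : β (pr 2 F (dx x)) = pr 2 F (dx x) ∨ β (pr 2 F (dx x)) = pr 2 F (dx x⁻¹))
    (hy : β (pr 2 F (dx y)) = pr 2 F (dx y) ∨ β (pr 2 F (dx y)) = pr 2 F (dx y⁻¹)) : GInv3 β := by
  have h1 : Finite (ProjectiveSpecialLinearGroup (Fin (2 + 1)) F) := finite_psl3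
  have h2 : Finite (cA 2).Group := finite_A 2
  have key : ∀ x : Fˣ, (β (pr 2 F (dx x)) = pr 2 F (dx x) ∨ β (pr 2 F (dx x)) = pr 2 F (dx x⁻¹)) →
      ∃ z ∈ NN (cA 2).toCoxeterSystem (rA 2 F).nsys, z * pr 2 F (dx x) * z⁻¹ = β (pr 2 F (dx x)) := by
    rintro x (h | h)
    · exact ⟨1, one_mem _, by rw [one_mul, inv_one, mul_one, h]⟩
    · exact ⟨_, nz_mem, by rw [← map_inv, ← map_mul, ← map_mul, nz_conj, h]⟩
  exact H118.K547.gInv3_of_elts hN (gA 2 F) twoC_psl3 T_psl_comm ⟨_, dx_mem x, rfl⟩ ⟨_, dx_mem y, rfl⟩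
    (pr_dx_ne_one hx1) (pr_dx_ne_one hy1) (fun z _ => not_conj hy1 hxy hxy' z) (key x hx) (key y hy)

/-- **P1** -/
theorem psl3_generic {β : MulAut (ProjectiveSpecialLinearGroup (Fin (2 + 1)) F)}
    {σ : Equiv.Perm (Fin 2)} (hN : Nrm (rA 2 F) β σ) (φ : F ≃+* F)
    (hφ : ∀ x y : Fˣ, φ (x : F) = y → β (pr 2 F (dx x)) = pr 2 F (dx y)) {x y : F} (hx0 : x ≠ 0) (hx1 : x ≠ 1)
    (hy0 : y ≠ 0) (hy1 : y ≠ 1) (hxy : y ≠ x) (hxy' : x * y ≠ 1) (hx : φ x = x ∨ φ x * x = 1)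
    (hy : φ y = y ∨ φ y * y = 1) : GInv3 β := by
  have key : ∀ {z : F} (h0 : z ≠ 0), (φ z = z ∨ φ z * z = 1) →
      (β (pr 2 F (dx (Units.mk0 z h0))) = pr 2 F (dx (Units.mk0 z h0)) ∨
        β (pr 2 F (dx (Units.mk0 z h0))) = pr 2 F (dx (Units.mk0 z h0)⁻¹)) := by
    rintro z h0 (h | h)
    · exact Or.inl (hφ _ _ h)
    · refine Or.inr (hφ _ _ ?_)
      rw [Units.val_inv_eq_inv_val, Units.val_mk0]
      exact eq_inv_of_mul_eq_one_left h
  refine psl3_two hN (x := Units.mk0 x hx0) (y := Units.mk0 y hy0) ?_ ?_ ?_ ?_ (key hx0 hx) (key hy0 hy)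
  · intro h
    exact hx1 (congrArg Units.val h)
  · intro h
    exact hy1 (congrArg Units.val h)
  · intro h
    exact hxy (congrArg Units.val h)
  · intro h
    exact hxy' (congrArg Units.val h)

end main

end Cfsg.Agent.H151.K547.Psl3
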